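import Mathlib
import Cfsg.Agent.H552.WData

/-!
# `R` elementary abelian (part RA of helper552's plan for S4258)
-/

set_option autoImplicit false
set_option linter.unusedSectionVars false

universe u

namespace Cfsg.Agent.H979.TwoLenRA

open Cfsg.Agent.H552

section Signs

variable {q : ℕ} [Fact q.Prime] {W : Type*} [AddCommGroup W] [Module (ZMod q) W]

theorem two_ne (hq : q ≠ 2) : (2 : ZMod q) ≠ 0 := by
  intro h
  have h1 : ((2 : ℕ) : ZMod q) = 0 := by exact_mod_cast h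
  rw [ZMod.natCast_eq_zero_iff] at h1
  exact hq ((Nat.prime_dvd_prime_iff_eq Fact.out Nat.prime_two).1 h1)

theorem eq_zero_of_add_self (hq : q ≠ 2) {w : W} (h : w + w = 0) : w = 0 := by
  rw [← two_smul (ZMod q)] at h
  exact (smul_eq_zero.1 h).resolve_left (two_ne hq)

theorem eq_zero_of_neg_eq (hq : q ≠ 2) {w : W} (h : -w = w) : w = 0 :=
  eq_zero_of_add_self hq (by nth_rewrite 1 [← h]; exact neg_add_cancel w)

/-- different signs on a vector -/
theorem eq_zero_of_sign_ne (hq : q ≠ 2) {w : W} {ε δ : ℤˣ} (hne : ε ≠ δ)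
    (h : (ε : ℤ) • w = (δ : ℤ) • w) : w = 0 := by
  rcases Int.units_eq_one_or ε with rfl | rfl <;> rcases Int.units_eq_one_or δ with rfl | rfl
  · exact absurd rfl hne
  · exact eq_zero_of_neg_eq hq (by simpa using h.symm)
  · exact eq_zero_of_neg_eq hq (by simpa using h)
  · exact absurd rfl hne

end Signs

/-- a joint eigenvector of an elementary abelian `2`-group in an invariant subspace -/
theorem exists_weight {q : ℕ} [Fact q.Prime] (hq : q ≠ 2) {G : Type*} [Group G] {R : Subgroup G}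
    (hRab : ∀ r ∈ R, ∀ s ∈ R, r * s = s * r) (hR2 : ∀ r ∈ R, r ^ 2 = 1)
    {W : Type*} [AddCommGroup W] [Module (ZMod q) W] [Finite W] (σ : G →* Module.End (ZMod q) W)
    (U : Submodule (ZMod q) W) (hU : ∀ r ∈ R, ∀ w ∈ U, σ r w ∈ U) (hne : U ≠ ⊥) :
    ∃ α : G → ℤˣ, ∃ w ∈ U, w ≠ 0 ∧ w ∈ wt σ R α := by
  classical
  have hfin : Finite (Submodule (ZMod q) W) := by
    exact Finite.of_injective (fun S : Submodule (ZMod q) W => (S : Set W)) SetLike.coe_injective
  let 𝒮 : Set (Submodule (ZMod q) W) := {S | S ≤ U ∧ S ≠ ⊥ ∧ ∀ r ∈ R, ∀ w ∈ S, σ r w ∈ S}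
  obtain ⟨S, hS⟩ := (Set.toFinite 𝒮).exists_minimal ⟨U, le_rfl, hne, hU⟩
  obtain ⟨hSU, hS0, hSR⟩ := hS.1
  have hmin : ∀ T ∈ 𝒮, T ≤ S → T = S := fun T hT hTS => le_antisymm hTS (hS.2 hT hTS)
  have hcomm : ∀ r ∈ R, ∀ s ∈ R, ∀ w, σ r (σ s w) = σ s (σ r w) := by
    intro r hr s hs w
    rw [← Module.End.mul_apply, ← map_mul, hRab r hr s hs, map_mul, Module.End.mul_apply]
  -- each `r` is a sign on `S`
  have hsign : ∀ r ∈ R, (∀ w ∈ S, σ r w = w) ∨ (∀ w ∈ S, σ r w = -w) := by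
    intro r hr
    have hrr : ∀ w, σ r (σ r w) = w := by
      intro w
      rw [← Module.End.mul_apply, ← map_mul, ← pow_two, hR2 r hr, map_one, Module.End.one_apply]
    by_cases h : ∀ w ∈ S, σ r w = -w
    · exact Or.inr h
    · left
      push Not at h
      obtain ⟨w₀, hw₀, hne₀⟩ := h
      let T : Submodule (ZMod q) W := S ⊓ LinearMap.ker (σ r - 1)
      have hT : T ∈ 𝒮 := by
        refine ⟨inf_le_left.trans hSU, ?_, ?_⟩
        · intro hbot
          have h1 : w₀ + σ r w₀ ∈ T := by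
            refine ⟨add_mem hw₀ (hSR r hr _ hw₀), ?_⟩
            change (σ r - 1) (w₀ + σ r w₀) = 0
            rw [LinearMap.sub_apply, Module.End.one_apply, map_add, hrr]
            abel
          rw [hbot, Submodule.mem_bot] at h1
          exact hne₀ (eq_neg_of_add_eq_zero_right h1)
        · rintro s hs w ⟨hw, hw'⟩
          refine ⟨hSR s hs w hw, ?_⟩
          change (σ r - 1) (σ s w) = 0
          have h2 : (σ r - 1) w = 0 := hw'
          rw [LinearMap.sub_apply, Module.End.one_apply] at h2 ⊢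
          rw [hcomm r hr s hs, ← map_sub, h2, map_zero]
      have h2 := hmin T hT inf_le_left
      intro w hw
      rw [← h2] at hw
      have h3 : (σ r - 1) w = 0 := hw.2
      rw [LinearMap.sub_apply, Module.End.one_apply, sub_eq_zero] at h3
      exact h3
  obtain ⟨w, hw, hw0⟩ := Submodule.exists_mem_ne_zero_of_ne_bot hS0
  refine ⟨fun r => if ∀ w ∈ S, σ r w = w then 1 else -1, w, hSU hw, hw0, ?_⟩
  intro r hr
  show σ r w = (((if ∀ w ∈ S, σ r w = w then 1 else -1 : ℤˣ) : ℤˣ) : ℤ) • w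
  split_ifs with h
  · rw [h w hw]; simp
  · rw [((hsign r hr).resolve_left h) w hw]; simp

section RA

variable {k q : ℕ} [Fact q.Prime] {G : Type u} [Group G] [Finite G] {Q R : Subgroup G} {W : Type u}
  [AddCommGroup W] [Module (ZMod q) W] [Finite W] {σ : G →* Module.End (ZMod q) W} {ι : Type u}
  {b : ι → W →ₗ[ZMod q] W →ₗ[ZMod q] ZMod q}

/-- vectors of different weights are orthogonal -/
theorem orth_of_ne (h : WD k q Q R σ b) {α β : G → ℤˣ} {r : G} (hr : r ∈ R) (hne : α r ≠ β r) {a c : W}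
    (ha : σ r a = ((α r : ℤˣ) : ℤ) • a) (hc : σ r c = ((β r : ℤˣ) : ℤ) • c) (t : ι) : b t a c = 0 := by
  have h1 := h.invR r hr t a c
  rw [ha, hc] at h1
  have h2 : -(b t a c) = b t a c := by
    rcases Int.units_eq_one_or (α r) with h3 | h3 <;> rcases Int.units_eq_one_or (β r) with h4 | h4
    · exact absurd (h3.trans h4.symm) hne
    · rw [h3, h4] at h1; simpa using h1
    · rw [h3, h4] at h1; simpa using h1
    · exact absurd (h3.trans h4.symm) hne
  exact eq_zero_of_neg_eq (q := q) h.q2 h2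

theorem skew (h : WD k q Q R σ b) (t : ι) (a c : W) : b t a c = -(b t c a) := by
  have h1 := h.alt t (a + c)
  simp only [map_add, LinearMap.add_apply, h.alt, zero_add, add_zero] at h1
  exact eq_neg_of_add_eq_zero_left (by rw [add_comm]; exact h1)

/-- the use of `E1` : a vector with isotropic orbit is fixed by `y ^ 2 ^ k` -/
theorem fixed_of_orth (h : WD k q Q R σ b) {y : G} (hy : IsTwo y) {w : W}
    (horth : ∀ i j : ℕ, ∀ t, b t (σ (y ^ i) w) (σ (y ^ j) w) = 0) : σ (y ^ 2 ^ k) w = w := by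
  let A : Submodule (ZMod q) W := Submodule.span (ZMod q) (Set.range fun i : ℕ => σ (y ^ i) w)
  have hwA : w ∈ A := Submodule.subset_span ⟨0, by simp⟩
  refine h.E1 y hy A ?_ ?_ w hwA
  · intro v hv
    refine Submodule.span_induction (p := fun v _ => σ y v ∈ A) ?_ ?_ ?_ ?_ hv
    · rintro _ ⟨i, rfl⟩
      refine Submodule.subset_span ⟨i + 1, ?_⟩
      show σ (y ^ (i + 1)) w = σ y (σ (y ^ i) w)
      rw [pow_succ', map_mul, Module.End.mul_apply]
    · rw [map_zero]; exact zero_mem _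
    · intro a c _ _ ha hc
      rw [map_add]; exact add_mem ha hc
    · intro s a _ ha
      rw [map_smul]; exact A.smul_mem s ha
  · intro v hv v' hv' t
    refine Submodule.span_induction (p := fun v _ => b t v v' = 0) ?_ ?_ ?_ ?_ hv
    · rintro _ ⟨i, rfl⟩
      refine Submodule.span_induction (p := fun v' _ => b t (σ (y ^ i) w) v' = 0) ?_ ?_ ?_ ?_ hv'
      · rintro _ ⟨j, rfl⟩
        exact horth i j t
      · rw [map_zero]
      · intro a c _ _ ha hc
        rw [map_add, ha, hc, add_zero]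
      · intro s a _ ha
        rw [map_smul, ha, smul_zero]
    · rw [map_zero, LinearMap.zero_apply]
    · intro a c _ _ ha hc
      rw [map_add, LinearMap.add_apply, ha, hc, add_zero]
    · intro s a _ ha
      rw [map_smul, LinearMap.smul_apply, ha, smul_zero]

/-- `(m x) ^ n = w x ^ n` with `w ∈ R` -/
theorem exists_mul_pow {x m : G} (hxR : x ∈ Subgroup.normalizer (R : Set G)) (hm : m ∈ R) (n : ℕ) :
    ∃ w ∈ R, (m * x) ^ n = w * x ^ n := by
  induction n with
  | zero => exact ⟨1, one_mem _, by simp⟩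
  | succ n ih =>
    obtain ⟨w, hw, h⟩ := ih
    refine ⟨m * (x * w * x⁻¹), mul_mem hm ((Subgroup.mem_normalizer_iff.1 hxR w).1 hw), ?_⟩
    rw [pow_succ', h, pow_succ']
    group

/-- the stabilizer of a weight -/
def stab (R : Subgroup G) (α : G → ℤˣ) : Subgroup G where
  carrier := {g | g ∈ Subgroup.normalizer (R : Set G) ∧ ∀ r ∈ R, α (g⁻¹ * r * g) = α r}
  one_mem' := ⟨one_mem _, fun r _ => by simp⟩
  mul_mem' := by
    rintro g g' ⟨hg, hg'⟩ ⟨hh, hh'⟩
    refine ⟨mul_mem hg hh, fun r hr => ?_⟩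
    have e : (g * g')⁻¹ * r * (g * g') = g'⁻¹ * (g⁻¹ * r * g) * g' := by group
    have h1 : g⁻¹ * r * g ∈ R := by
      have := (Subgroup.mem_normalizer_iff.1 (inv_mem hg) r).1 hr
      simpa using this
    rw [e, hh' _ h1, hg' r hr]
  inv_mem' := by
    rintro g ⟨hg, hg'⟩
    refine ⟨inv_mem hg, fun r hr => ?_⟩
    have h1 : g * r * g⁻¹ ∈ R := (Subgroup.mem_normalizer_iff.1 hg r).1 hr
    have h2 := hg' _ h1
    have e : g⁻¹ * (g * r * g⁻¹) * g = r := by group
    rw [e] at h2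
    rw [inv_inv]
    exact h2.symm

theorem mem_stab {α : G → ℤˣ} {g : G} : g ∈ stab R α ↔
    g ∈ Subgroup.normalizer (R : Set G) ∧ ∀ r ∈ R, α (g⁻¹ * r * g) = α r := Iff.rfl

theorem mem_of_odd_pow {S : Subgroup G} {y : G} (hy : IsTwo y) {o : ℕ} (ho : Odd o) (h : y ^ o ∈ S) : y ∈ S := by
  obtain ⟨j, hj⟩ := isTwo_iff_orderOf.1 hy
  have hc : o.Coprime (orderOf y) := by
    rw [hj]
    exact (Nat.Coprime.pow_left _ (Nat.coprime_two_left.2 ho)).symm
  obtain ⟨n, hn⟩ := exists_pow_eq_self_of_coprime hc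
  rw [← hn]
  exact pow_mem h n

/-- the weight of the translate of a weight vector -/
theorem translate {α : G → ℤˣ} {w : W} (hw : w ∈ wt σ R α) {g : G} (hg : g ∈ Subgroup.normalizer (R : Set G))
    {r : G} (hr : r ∈ R) : σ r (σ g w) = ((α (g⁻¹ * r * g) : ℤˣ) : ℤ) • σ g w := by
  have h1 : g⁻¹ * r * g ∈ R := by
    have := (Subgroup.mem_normalizer_iff.1 (inv_mem hg) r).1 hr
    simpa using this
  have h2 := hw _ h1
  rw [← map_zsmul, ← h2, ← Module.End.mul_apply, ← Module.End.mul_apply, ← map_mul, ← map_mul]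
  congr 2
  group

/-- orthogonality of the translates of a weight vector -/
theorem orth_translate (h : WD k q Q R σ b) {α : G → ℤˣ} {w : W} (hw : w ∈ wt σ R α) {g g' : G}
    (hg : g ∈ Subgroup.normalizer (R : Set G)) (hg' : g' ∈ Subgroup.normalizer (R : Set G))
    (hne : g⁻¹ * g' ∉ stab R α) (t : ι) : b t (σ g w) (σ g' w) = 0 := by
  have h1 : ∃ r ∈ R, α (g⁻¹ * r * g) ≠ α (g'⁻¹ * r * g') := by
    by_contra hcon
    push Not at hcon
    apply hne
    refine mem_stab.2 ⟨mul_mem (inv_mem hg) hg', fun r hr => ?_⟩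
    have h2 : g * r * g⁻¹ ∈ R := (Subgroup.mem_normalizer_iff.1 hg r).1 hr
    have h3 := hcon _ h2
    have e1 : g⁻¹ * (g * r * g⁻¹) * g = r := by group
    have e2 : g'⁻¹ * (g * r * g⁻¹) * g' = (g⁻¹ * g')⁻¹ * r * (g⁻¹ * g') := by group
    rw [e1, e2] at h3
    exact h3.symm
  obtain ⟨r, hr, hrne⟩ := h1
  exact orth_of_ne (α := fun r => α (g⁻¹ * r * g)) (β := fun r => α (g'⁻¹ * r * g')) h hr hrne
    (translate hw hg hr) (translate hw hg' hr) t

/-- orthogonality of all the translates under the powers of `y = m x` -/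
theorem orth_all (h : WD k q Q R σ b) {α : G → ℤˣ} {w : W} (hw : w ∈ wt σ R α) {x m : G}
    (hxR : x ∈ Subgroup.normalizer (R : Set G)) (hm : m ∈ R)
    (hd : ∀ d : ℕ, x ^ d ∉ stab R α ∨ ∃ ε : ℤ, σ (x ^ d) w = ε • w) (i j : ℕ) (t : ι) :
    b t (σ ((m * x) ^ i) w) (σ ((m * x) ^ j) w) = 0 := by
  have hxn : ∀ n : ℕ, x ^ n ∈ Subgroup.normalizer (R : Set G) := fun n => pow_mem hxR n
  -- reduction to `x`
  have hred : ∀ n : ℕ, ∃ ε : ℤ, σ ((m * x) ^ n) w = ε • σ (x ^ n) w := by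
    intro n
    obtain ⟨v, hv, he⟩ := exists_mul_pow hxR hm n
    refine ⟨((α ((x ^ n)⁻¹ * v * x ^ n) : ℤˣ) : ℤ), ?_⟩
    rw [he, map_mul, Module.End.mul_apply]
    exact translate hw (hxn n) hv
  have hx' : ∀ i j : ℕ, i ≤ j → b t (σ (x ^ i) w) (σ (x ^ j) w) = 0 := by
    intro i j hij
    obtain ⟨d, rfl⟩ := Nat.exists_eq_add_of_le hij
    rcases hd d with h1 | ⟨ε, h1⟩
    · apply orth_translate h hw (hxn i) (hxn _)
      rw [pow_add, inv_mul_cancel_left]
      exact h1
    · rw [pow_add, map_mul, Module.End.mul_apply, h1, map_zsmul, map_zsmul, h.alt, smul_zero]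
  have hx : b t (σ (x ^ i) w) (σ (x ^ j) w) = 0 := by
    rcases le_total i j with h1 | h1
    · exact hx' i j h1
    · rw [skew h, hx' j i h1, neg_zero]
  obtain ⟨ε, hε⟩ := hred i
  obtain ⟨δ, hδ⟩ := hred j
  rw [hε, hδ, map_zsmul, map_zsmul, LinearMap.smul_apply, hx, smul_zero, smul_zero]

/-- **Part RA of the plan for S4258.** -/
theorem caseRA (h : WD k q Q R σ b) (hk : 1 ≤ k) (hRab : ∀ r ∈ R, ∀ s ∈ R, r * s = s * r)
    (hR2 : ∀ r ∈ R, r ^ 2 = 1) {x m : G} (hx : IsTwo x) (hxR : x ∈ Subgroup.normalizer (R : Set G))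
    (hm : m ∈ R) (hmx : IsTwo (m * x)) : (m * x) ^ 2 ^ k = x ^ 2 ^ k := by
  have hq := h.q2
  obtain ⟨v, hv, hve⟩ := exists_mul_pow hxR hm (2 ^ k)
  obtain ⟨v', hv', hve'⟩ := exists_mul_pow hxR hm (2 ^ (k - 1))
  have hpow : 2 ^ k = 2 ^ (k - 1) + 2 ^ (k - 1) := by
    rw [← two_mul, ← pow_succ']
    congr 1
    omega
  set u := x ^ 2 ^ (k - 1) with hu
  have huu : x ^ 2 ^ k = u * u := by rw [hpow, pow_add]
  have hun : u ∈ Subgroup.normalizer (R : Set G) := pow_mem hxR _
  have hvv : v = v' * (u * v' * u⁻¹) := by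
    have h1 : (m * x) ^ 2 ^ k = (m * x) ^ 2 ^ (k - 1) * (m * x) ^ 2 ^ (k - 1) := by rw [hpow, pow_add]
    rw [hve, hve', huu] at h1
    have h2 : v = (v' * u * (v' * u)) * (u * u)⁻¹ := by rw [← h1]; group
    rw [h2]; group
  by_contra hne
  have hv1 : v ≠ 1 := by
    rintro rfl
    exact hne (by rw [hve, one_mul])
  -- a weight with `α v = -1`
  have hσv : σ v ≠ 1 := fun h1 => hv1 (h.faithR v hv h1)
  have hvv2 : ∀ w, σ v (σ v w) = w := by
    intro w
    rw [← Module.End.mul_apply, ← map_mul, ← pow_two, hR2 v hv, map_one, Module.End.one_apply]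
  obtain ⟨a, ha⟩ : ∃ a, σ v a ≠ a := by
    by_contra hcon
    push Not at hcon
    exact hσv (LinearMap.ext hcon)
  let U : Submodule (ZMod q) W := LinearMap.ker (σ v + 1)
  have hUmem : ∀ w, w ∈ U ↔ σ v w = -w := by
    intro w
    change (σ v + 1) w = 0 ↔ _
    rw [LinearMap.add_apply, Module.End.one_apply, add_eq_zero_iff_eq_neg]
  have hU0 : U ≠ ⊥ := by
    intro hbot
    have h1 : σ v a - a ∈ U := by
      rw [hUmem, map_sub, hvv2]; abel
    rw [hbot, Submodule.mem_bot, sub_eq_zero] at h1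
    exact ha h1
  have hUR : ∀ r ∈ R, ∀ w ∈ U, σ r w ∈ U := by
    intro r hr w hw
    rw [hUmem] at hw ⊢
    rw [← Module.End.mul_apply, ← map_mul, hRab v hv r hr, map_mul, Module.End.mul_apply, hw, map_neg]
  obtain ⟨α, w₁, hw₁U, hw₁0, hw₁⟩ := exists_weight hq hRab hR2 σ U hUR hU0
  have hαv : α v = -1 := by
    rcases Int.units_eq_one_or (α v) with h1 | h1
    · exfalso
      have h2 := hw₁ v hv
      rw [(hUmem w₁).1 hw₁U, h1, Units.val_one, one_smul] at h2
      exact hw₁0 (eq_zero_of_neg_eq hq h2)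
    · exact h1
  have hmul : ∀ r ∈ R, ∀ s ∈ R, α (r * s) = α r * α s := by
    intro r hr s hs
    by_contra hcon
    have h1 := hw₁ (r * s) (mul_mem hr hs)
    rw [map_mul, Module.End.mul_apply, hw₁ s hs, map_zsmul, hw₁ r hr, smul_smul, mul_comm, ← Units.val_mul] at h1
    exact hw₁0 (eq_zero_of_sign_ne hq (Ne.symm hcon) h1)
  -- `u` moves the weight
  have hu' : u ∉ stab R α := by
    intro hst
    have h1 : u * v' * u⁻¹ ∈ R := (Subgroup.mem_normalizer_iff.1 hun v').1 hv'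
    have h2 := (mem_stab.1 hst).2 _ h1
    have e : u⁻¹ * (u * v' * u⁻¹) * u = v' := by group
    rw [e] at h2
    rw [hvv, hmul _ hv' _ h1, ← h2] at hαv
    rcases Int.units_eq_one_or (α v') with h3 | h3 <;> rw [h3] at hαv <;> exact absurd hαv (by decide)
  have hstab : ∀ j, j < k → x ^ 2 ^ j ∉ stab R α := by
    intro j hj hmem
    apply hu'
    obtain ⟨l, hl⟩ : ∃ l, k - 1 = j + l := ⟨k - 1 - j, by omega⟩
    rw [hu, hl, pow_add, pow_mul]
    exact pow_mem hmem _
  have hz2 : x ^ 2 ^ (k + 1) = 1 := h.expo x hx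
  by_cases hz : x ^ 2 ^ k ∈ stab R α
  · -- case (b)
    have hzw : ∀ w ∈ wt σ R α, σ (x ^ 2 ^ k) w ∈ wt σ R α := by
      intro w hw r hr
      rw [translate hw (mem_stab.1 hz).1 hr, (mem_stab.1 hz).2 r hr]
    have hzz : ∀ w, σ (x ^ 2 ^ k) (σ (x ^ 2 ^ k) w) = w := by
      intro w
      rw [← Module.End.mul_apply, ← map_mul, ← pow_add, ← two_mul, ← pow_succ', hz2, map_one, Module.End.one_apply]
    have hev : ∃ w ∈ wt σ R α, w ≠ 0 ∧ (σ (x ^ 2 ^ k) w = w ∨ σ (x ^ 2 ^ k) w = -w) := by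
      by_cases h1 : w₁ + σ (x ^ 2 ^ k) w₁ = 0
      · exact ⟨w₁, hw₁, hw₁0, Or.inr (eq_neg_of_add_eq_zero_right h1)⟩
      · refine ⟨_, add_mem hw₁ (hzw _ hw₁), h1, Or.inl ?_⟩
        rw [map_add, hzz, add_comm]
    obtain ⟨w, hw, hw0, hwe⟩ := hev
    have hd : ∀ d : ℕ, x ^ d ∉ stab R α ∨ ∃ ε : ℤ, σ (x ^ d) w = ε • w := by
      intro d
      rcases Nat.eq_zero_or_pos d with rfl | hdpos
      · right; exact ⟨1, by simp⟩
      obtain ⟨j, o, ho, hjo⟩ := Nat.exists_eq_two_pow_mul_odd hdpos.ne'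
      rcases Nat.lt_or_ge j k with hj | hj
      · left
        intro hmem
        rw [hjo, pow_mul] at hmem
        exact hstab j hj (mem_of_odd_pow (hx.pow _) ho hmem)
      · right
        obtain ⟨l, rfl⟩ := Nat.exists_eq_add_of_le hj
        have h1 : ∀ n : ℕ, ∃ ε : ℤ, σ ((x ^ 2 ^ k) ^ n) w = ε • w := by
          intro n
          induction n with
          | zero => exact ⟨1, by simp⟩
          | succ n ih =>
            obtain ⟨ε, hε⟩ := ih
            rcases hwe with h2 | h2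
            · exact ⟨ε, by rw [pow_succ, map_mul, Module.End.mul_apply, h2, hε]⟩
            · exact ⟨-ε, by rw [pow_succ, map_mul, Module.End.mul_apply, h2, map_neg, hε, neg_smul]⟩
        rw [hjo, pow_add, mul_assoc, pow_mul]
        exact h1 _
    rcases hwe with h2 | h2
    · -- use `m x`
      have h3 := fixed_of_orth h hmx (w := w) (fun i j t => orth_all h hw hxR hm hd i j t)
      rw [hve, map_mul, Module.End.mul_apply, h2, hw v hv, hαv] at h3
      exact hw0 (eq_zero_of_neg_eq hq (by simpa using h3))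
    · have h3 := fixed_of_orth h hx (w := w) (fun i j t => by
        have := orth_all h hw hxR (one_mem R) hd i j t
        rwa [one_mul] at this)
      rw [h2] at h3
      exact hw0 (eq_zero_of_neg_eq hq h3)
  · -- case (a)
    have hd : ∀ d : ℕ, x ^ d ∉ stab R α ∨ ∃ ε : ℤ, σ (x ^ d) w₁ = ε • w₁ := by
      intro d
      rcases Nat.eq_zero_or_pos d with rfl | hdpos
      · right; exact ⟨1, by simp⟩
      obtain ⟨j, o, ho, hjo⟩ := Nat.exists_eq_two_pow_mul_odd hdpos.ne'
      rcases Nat.lt_or_ge k j with hj | hj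
      · right
        refine ⟨1, ?_⟩
        obtain ⟨l, rfl⟩ := Nat.exists_eq_add_of_le (Nat.succ_le_of_lt hj)
        rw [hjo, Nat.succ_eq_add_one, pow_add, mul_assoc, pow_mul, hz2, one_pow]
        simp
      · left
        intro hmem
        rw [hjo, pow_mul] at hmem
        have h1 := mem_of_odd_pow (hx.pow _) ho hmem
        apply hz
        obtain ⟨l, rfl⟩ := Nat.exists_eq_add_of_le hj
        rw [pow_add, pow_mul]
        exact pow_mem h1 _
    have h3 := fixed_of_orth h hx (w := w₁) (fun i j t => by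
      have := orth_all h hw₁ hxR (one_mem R) hd i j t
      rwa [one_mul] at this)
    have hzn : x ^ 2 ^ k ∈ Subgroup.normalizer (R : Set G) := pow_mem hxR _
    apply hz
    refine mem_stab.2 ⟨hzn, fun r hr => ?_⟩
    by_contra hcon
    have h4 := translate hw₁ hzn hr
    rw [h3, hw₁ r hr] at h4
    exact hw₁0 (eq_zero_of_sign_ne hq (Ne.symm hcon) h4)

end RA

end Cfsg.Agent.H979.TwoLenRA
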