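import Mathlib
import Cfsg.Agent.H979.TwoLenRA

/-!
# Part TR of helper552's plan for S4258
-/

set_option autoImplicit false
set_option linter.unusedSectionVars false
set_option linter.unusedVariables false

universe u

namespace Cfsg.Agent.H979.TwoLenTR

open Cfsg.Agent.H552 Cfsg.Agent.H979.TwoLenRA Module

variable {k q : ℕ} [Fact q.Prime] {G : Type u} [Group G] [Finite G] {Q R : Subgroup G} {W : Type u}
  [AddCommGroup W] [Module (ZMod q) W] [Finite W] {σ : G →* Module.End (ZMod q) W} {ι : Type u}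
  {b : ι → W →ₗ[ZMod q] W →ₗ[ZMod q] ZMod q}

theorem inv_apply (σ : G →* Module.End (ZMod q) W) (g : G) (w : W) : σ g (σ g⁻¹ w) = w := by
  rw [← Module.End.mul_apply, ← map_mul, mul_inv_cancel, map_one, Module.End.one_apply]

theorem conj_apply (σ : G →* Module.End (ZMod q) W) (c g : G) (w : W) :
    σ c (σ g w) = σ g (σ (g⁻¹ * c * g) w) := by
  rw [← Module.End.mul_apply, ← map_mul, ← Module.End.mul_apply, ← map_mul]
  congr 2
  group

/-- **Part TR of the plan for S4258.** -/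
theorem transfer (h : WD k q Q R σ b) (Z₀ : Subgroup G) (hZ₀R : Z₀ ≤ R)
    (hZ₀c : ∀ c ∈ Z₀, ∀ r ∈ R, c * r = r * c) (hZ₀2 : ∀ c ∈ Z₀, c ^ 2 = 1)
    (hG : ∀ g : G, ∃ a ∈ Q, ∃ n ∈ Subgroup.normalizer (Z₀ : Set G), g = a * n) {α₀ : G → ℤˣ}
    (hα₀ : wt σ Z₀ α₀ ≠ ⊥) (hs : ∀ i, wdim σ Z₀ α₀ (b i) ≤ 4) :
    ∀ α : G → ℤˣ, wt σ Z₀ α ≠ ⊥ → ∀ i, wdim σ Z₀ α (b i) ≤ 4 := by
  intro α hα i
  have hσ : ∀ g : G, ∃ n ∈ Subgroup.normalizer (Z₀ : Set G), σ g = σ n := by
    intro g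
    obtain ⟨a, ha, n, hn, rfl⟩ := hG g
    exact ⟨n, hn, by rw [map_mul, h.trivQ a ha, one_mul]⟩
  have hconj : ∀ n ∈ Subgroup.normalizer (Z₀ : Set G), ∀ c ∈ Z₀, n⁻¹ * c * n ∈ Z₀ := by
    intro n hn c hc
    have h1 := (Subgroup.mem_normalizer_iff.1 (inv_mem hn) c).1 hc
    rwa [inv_inv] at h1
  -- some conjugate of `α₀` is `α`
  obtain ⟨n, hn, hnα⟩ : ∃ n ∈ Subgroup.normalizer (Z₀ : Set G), ∀ c ∈ Z₀, α c = α₀ (n⁻¹ * c * n) := by
    by_contra hcon
    push Not at hcon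
    apply hα
    rw [eq_bot_iff]
    intro w hw
    rw [Submodule.mem_bot]
    let A : Submodule (ZMod q) W := Submodule.span (ZMod q) {x | ∃ g : G, ∃ v ∈ wt σ Z₀ α₀, x = σ g v}
    have hAinv : ∀ g, ∀ x ∈ A, σ g x ∈ A := by
      intro g x hx
      refine Submodule.span_induction (p := fun x _ => σ g x ∈ A) ?_ ?_ ?_ ?_ hx
      · rintro _ ⟨g', v, hv, rfl⟩
        refine Submodule.subset_span ⟨g * g', v, hv, ?_⟩
        rw [map_mul, Module.End.mul_apply]
      · rw [map_zero]; exact zero_mem _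
      · intro a c _ _ ha hc
        rw [map_add]; exact add_mem ha hc
      · intro s a _ ha
        rw [map_smul]; exact A.smul_mem s ha
    have hA : A = ⊤ := by
      rcases h.irr A hAinv with hA | hA
      · exfalso
        apply hα₀
        rw [eq_bot_iff, ← hA]
        intro v hv
        exact Submodule.subset_span ⟨1, v, hv, by rw [map_one, Module.End.one_apply]⟩
      · exact hA
    apply h.nondeg
    intro t w'
    have hw' : w' ∈ A := by rw [hA]; trivial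
    refine Submodule.span_induction (p := fun x _ => b t w x = 0) ?_ ?_ ?_ ?_ hw'
    · rintro _ ⟨g, v, hv, rfl⟩
      obtain ⟨n, hn, hgn⟩ := hσ g
      rw [hgn]
      obtain ⟨c, hc, hne⟩ := hcon n hn
      refine orth_of_ne h (α := α) (β := fun c => α₀ (n⁻¹ * c * n)) (hZ₀R hc) hne (mem_wt.1 hw c hc) ?_ t
      rw [conj_apply σ c n v, mem_wt.1 hv _ (hconj n hn c hc), map_zsmul]
    · rw [map_zero]
    · intro a c _ _ ha hc
      rw [map_add, ha, hc, add_zero]
    · intro s a _ ha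
      rw [map_smul, ha, smul_zero]
  -- transport
  obtain ⟨j, hj⟩ := h.perm n i
  have hker : LinearMap.ker (b j) ≤ (LinearMap.ker (b i)).comap (σ n) := by
    intro w hw
    rw [LinearMap.mem_ker] at hw
    rw [Submodule.mem_comap, LinearMap.mem_ker]
    ext w'
    rw [← inv_apply σ n w', hj, hw, LinearMap.zero_apply, LinearMap.zero_apply]
  have hle : (wt σ Z₀ α).map (LinearMap.ker (b i)).mkQ ≤
      ((wt σ Z₀ α₀).map (LinearMap.ker (b j)).mkQ).map (Submodule.mapQ _ _ (σ n) hker) := by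
    rintro _ ⟨w, hw, rfl⟩
    refine ⟨(LinearMap.ker (b j)).mkQ (σ n⁻¹ w), ⟨σ n⁻¹ w, ?_, rfl⟩, ?_⟩
    · intro c hc
      have h1 : n * c * n⁻¹ ∈ Z₀ := (Subgroup.mem_normalizer_iff.1 hn c).1 hc
      rw [conj_apply σ c n⁻¹ w, inv_inv, mem_wt.1 hw _ h1, hnα _ h1, map_zsmul]
      congr 3
      group
    · rw [Submodule.mkQ_apply, Submodule.mapQ_apply, inv_apply, Submodule.mkQ_apply]
  have h1 := Submodule.finrank_mono hle
  have h2 := Submodule.finrank_map_le (Submodule.mapQ _ _ (σ n) hker) ((wt σ Z₀ α₀).map (LinearMap.ker (b j)).mkQ)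
  exact h1.trans (h2.trans (hs j))

end Cfsg.Agent.H979.TwoLenTR
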