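import Mathlib
import Cfsg.Agent.H979.TwoLenTR

/-!
# Part 5N of helper552's plan for S4258
-/

set_option autoImplicit false
set_option linter.unusedSectionVars false
set_option linter.unusedVariables false

universe u

namespace Cfsg.Agent.H979.TwoLen5N

open Cfsg.Agent.H552 Cfsg.Agent.H979.TwoLenRA Cfsg.Agent.H979.TwoLenTR Module
open scoped commutatorElement

section Half

variable {q : ℕ} [Fact q.Prime] {W : Type*} [AddCommGroup W] [Module (ZMod q) W] [Finite W]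

/-- an involution `C` on `U` inverted by `ρ` has equal eigenspaces -/
theorem half (hq : q ≠ 2) (U K : Submodule (ZMod q) W) (C ρ : Module.End (ZMod q) W)
    (hCK : ∀ w ∈ K, C w ∈ K) (hρU : ∀ w ∈ U, ρ w ∈ U) (hρK : ∀ w, ρ w ∈ K → w ∈ K) (hρK' : ∀ w ∈ K, ρ w ∈ K)
    (hanti : ∀ w ∈ U, C (ρ w) = -ρ (C w)) {n : ℕ} (hn : finrank (ZMod q) (U.map K.mkQ) ≤ 2 * n) :
    finrank (ZMod q) ((U ⊓ LinearMap.ker (C - 1)).map K.mkQ) ≤ n := by
  set P := (U ⊓ LinearMap.ker (C - 1)).map K.mkQ with hP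
  set N := (U ⊓ LinearMap.ker (C + 1)).map K.mkQ with hN
  have hkm : ∀ w, w ∈ LinearMap.ker (C - 1) ↔ C w = w := by
    intro w
    rw [LinearMap.mem_ker, LinearMap.sub_apply, Module.End.one_apply, sub_eq_zero]
  have hkp : ∀ w, w ∈ LinearMap.ker (C + 1) ↔ C w = -w := by
    intro w
    rw [LinearMap.mem_ker, LinearMap.add_apply, Module.End.one_apply, add_eq_zero_iff_eq_neg]
  have hdisj : P ⊓ N = ⊥ := by
    rw [eq_bot_iff]
    rintro x ⟨⟨w, ⟨hw, hw'⟩, rfl⟩, ⟨v, ⟨hv, hv'⟩, hvw⟩⟩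
    rw [SetLike.mem_coe, hkm] at hw'
    rw [SetLike.mem_coe, hkp] at hv'
    rw [Submodule.mem_bot, Submodule.mkQ_apply, Submodule.Quotient.mk_eq_zero]
    rw [Submodule.mkQ_apply, Submodule.mkQ_apply, Submodule.Quotient.eq] at hvw
    have h1 := hCK _ hvw
    rw [map_sub, hv', hw'] at h1
    have h2 := add_mem hvw h1
    have e : v - w + (-v - w) = -((2 : ZMod q) • w) := by rw [two_smul]; abel
    rw [e, neg_mem_iff] at h2
    exact (K.smul_mem_iff (two_ne hq)).1 h2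
  have hsup : P ⊔ N ≤ U.map K.mkQ :=
    sup_le (Submodule.map_mono inf_le_left) (Submodule.map_mono inf_le_left)
  have h1 := Submodule.finrank_sup_add_finrank_inf_eq P N
  rw [hdisj, finrank_bot, add_zero] at h1
  have h2 := Submodule.finrank_mono hsup
  let f : (W ⧸ K) →ₗ[ZMod q] (W ⧸ K) := Submodule.mapQ K K ρ (fun w hw => hρK' w hw)
  have hf : Function.Injective f := by
    rw [← LinearMap.ker_eq_bot, eq_bot_iff]
    intro x hx
    obtain ⟨w, rfl⟩ := Submodule.mkQ_surjective K x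
    rw [LinearMap.mem_ker, Submodule.mkQ_apply, Submodule.mapQ_apply, Submodule.Quotient.mk_eq_zero] at hx
    rw [Submodule.mem_bot, Submodule.mkQ_apply, Submodule.Quotient.mk_eq_zero]
    exact hρK w hx
  have h3 : finrank (ZMod q) (P.map f) = finrank (ZMod q) P :=
    (Submodule.equivMapOfInjective f hf P).symm.finrank_eq
  have h4 : P.map f ≤ N := by
    rintro _ ⟨_, ⟨w, ⟨hw, hw'⟩, rfl⟩, rfl⟩
    rw [SetLike.mem_coe, hkm] at hw'
    refine ⟨ρ w, ⟨hρU w hw, ?_⟩, ?_⟩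
    · rw [SetLike.mem_coe, hkp, hanti w hw, hw']
    · rw [Submodule.mkQ_apply, Submodule.mkQ_apply, Submodule.mapQ_apply]
  have h5 := Submodule.finrank_mono h4
  omega

end Half

variable {k q : ℕ} [Fact q.Prime] {G : Type u} [Group G] [Finite G] {Q R : Subgroup G} {W : Type u}
  [AddCommGroup W] [Module (ZMod q) W] [Finite W] {σ : G →* Module.End (ZMod q) W} {ι : Type u}
  {b : ι → W →ₗ[ZMod q] W →ₗ[ZMod q] ZMod q}

theorem ker_inv (h : WD k q Q R σ b) {r : G} (hr : r ∈ R) {i : ι} {w : W} (hw : w ∈ LinearMap.ker (b i)) :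
    σ r w ∈ LinearMap.ker (b i) := by
  rw [LinearMap.mem_ker] at hw ⊢
  ext w'
  rw [← inv_apply σ r w', h.invR r hr, hw, LinearMap.zero_apply, LinearMap.zero_apply]

theorem ker_inv' (h : WD k q Q R σ b) {r : G} (hr : r ∈ R) {i : ι} {w : W}
    (hw : σ r w ∈ LinearMap.ker (b i)) : w ∈ LinearMap.ker (b i) := by
  have h1 := ker_inv h (inv_mem hr) hw
  have h2 : σ r⁻¹ (σ r w) = w := by
    have := inv_apply σ r⁻¹ w
    rwa [inv_inv] at this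
  rwa [h2] at h1

/-- **Part 5N of the plan for S4258.** -/
theorem no_sing (h : WD k q Q R σ b) (Z₀ : Subgroup G) (hZ₀R : Z₀ ≤ R)
    (hZ₀c : ∀ c ∈ Z₀, ∀ r ∈ R, c * r = r * c) (hZ₀2 : ∀ c ∈ Z₀, c ^ 2 = 1)
    (hRZ : ∀ r ∈ R, ∀ s ∈ R, ⁅r, s⁆ ∈ Z₀) (hR2 : ∀ r ∈ R, r ^ 2 ∈ Z₀) (α : G → ℤˣ) (i : ι)
    (hi : ∃ w ∈ wt σ Z₀ α, w ∉ LinearMap.ker (b i)) (hsmall : wdim σ Z₀ α (b i) ≤ 4) {c d : G} (hc : c ∈ R)
    (hd : d ∈ R) (hc2 : α (c ^ 2) = 1) (hd2 : α (d ^ 2) = 1) (hcd : α ⁅c, d⁆ = 1) :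
    (∀ r ∈ R, α ⁅c, r⁆ = 1) ∨ (∀ r ∈ R, α ⁅d, r⁆ = 1) ∨ (∀ r ∈ R, α ⁅c * d, r⁆ = 1) := by
  classical
  obtain ⟨w₀, hw₀, hw₀K⟩ := hi
  have hw₀0 : w₀ ≠ 0 := by
    rintro rfl
    exact hw₀K (zero_mem _)
  -- `α` is multiplicative on `Z₀`
  have hmul : ∀ a ∈ Z₀, ∀ e ∈ Z₀, α (a * e) = α a * α e := by
    intro a ha e he
    by_contra hne
    refine hw₀0 (eq_zero_of_sign_ne (q := q) h.q2 hne ?_)
    rw [← mem_wt.1 hw₀ _ (mul_mem ha he), map_mul, Module.End.mul_apply, mem_wt.1 hw₀ e he, map_zsmul,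
      mem_wt.1 hw₀ a ha, smul_smul, mul_comm (α a), Units.val_mul]
  have hα1 : α 1 = 1 := by
    have h1 := hmul 1 (one_mem _) 1 (one_mem _)
    rw [mul_one] at h1
    exact left_eq_mul.1 h1
  -- action of `R` on the weight space
  have hUR : ∀ r ∈ R, ∀ w ∈ wt σ Z₀ α, σ r w ∈ wt σ Z₀ α := by
    intro r hr w hw a ha
    rw [conj_apply σ a r w]
    have h1 : r⁻¹ * a * r = a := by rw [mul_assoc, hZ₀c a ha r hr, inv_mul_cancel_left]
    rw [h1, mem_wt.1 hw a ha, map_zsmul]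
  -- commutation
  have hcomm : ∀ r ∈ R, ∀ s ∈ R, ∀ w ∈ wt σ Z₀ α, σ r (σ s w) = ((α ⁅r, s⁆ : ℤˣ) : ℤ) • σ s (σ r w) := by
    intro r hr s hs w hw
    have h1 : σ r (σ s w) = σ ⁅r, s⁆ (σ s (σ r w)) := by
      rw [← Module.End.mul_apply, ← map_mul, ← Module.End.mul_apply, ← map_mul, ← Module.End.mul_apply,
        ← map_mul]
      congr 2
      rw [commutatorElement_def]
      group
    rw [h1, mem_wt.1 (hUR s hs _ (hUR r hr w hw)) _ (hRZ r hr s hs)]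
  have hsq : ∀ r ∈ R, α (r ^ 2) = 1 → ∀ w ∈ wt σ Z₀ α, σ r (σ r w) = w := by
    intro r hr hr2 w hw
    rw [← Module.End.mul_apply, ← map_mul, ← pow_two, mem_wt.1 hw _ (hR2 r hr), hr2]
    simp
  by_contra hcon
  push Not at hcon
  obtain ⟨⟨r₁, hr₁, hr₁'⟩, ⟨r₂, hr₂, hr₂'⟩, ⟨r₃, hr₃, hr₃'⟩⟩ := hcon
  -- multiplicativity of commutators
  have hcm : ∀ a ∈ R, ∀ r ∈ R, ∀ s ∈ R, α ⁅a, r * s⁆ = α ⁅a, r⁆ * α ⁅a, s⁆ := by
    intro a ha r hr s hs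
    rw [← hmul _ (hRZ a ha r hr) _ (hRZ a ha s hs)]
    congr 1
    have h1 : ⁅a, r * s⁆ = ⁅a, r⁆ * (r * ⁅a, s⁆ * r⁻¹) := by
      simp only [commutatorElement_def]; group
    rw [h1, ← hZ₀c _ (hRZ a ha s hs) r hr, mul_inv_cancel_right]
  have hmc : ∀ r ∈ R, α ⁅c * d, r⁆ = α ⁅c, r⁆ * α ⁅d, r⁆ := by
    intro r hr
    rw [← hmul _ (hRZ c hc r hr) _ (hRZ d hd r hr)]
    congr 1
    have h1 : ⁅c * d, r⁆ = (c * ⁅d, r⁆ * c⁻¹) * ⁅c, r⁆ := by
      simp only [commutatorElement_def]; group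
    rw [h1, ← hZ₀c _ (hRZ d hd r hr) c hc, mul_inv_cancel_right,
      hZ₀c _ (hRZ d hd r hr) _ (hZ₀R (hRZ c hc r hr))]
  have hur : ∀ e : ℤˣ, e ≠ 1 → e = -1 := fun e he => (Int.units_eq_one_or e).resolve_left he
  -- an element with prescribed signs
  have hA : ∃ r ∈ R, α ⁅c, r⁆ = -1 ∧ α ⁅d, r⁆ = 1 := by
    rw [hmc r₃ hr₃] at hr₃'
    rcases Int.units_eq_one_or (α ⁅c, r₃⁆) with h3 | h3 <;> rcases Int.units_eq_one_or (α ⁅d, r₃⁆) with h4 | h4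
    · rw [h3, h4] at hr₃'; exact absurd (by decide) hr₃'
    · rcases Int.units_eq_one_or (α ⁅d, r₁⁆) with h5 | h5
      · exact ⟨r₁, hr₁, hur _ hr₁', h5⟩
      · refine ⟨r₁ * r₃, mul_mem hr₁ hr₃, ?_, ?_⟩
        · rw [hcm c hc r₁ hr₁ r₃ hr₃, hur _ hr₁', h3]; decide
        · rw [hcm d hd r₁ hr₁ r₃ hr₃, h5, h4]; decide
    · exact ⟨r₃, hr₃, h3, h4⟩
    · rw [h3, h4] at hr₃'; exact absurd (by decide) hr₃'
  obtain ⟨s₁, hs₁, hs₁c, hs₁d⟩ := hA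
  have hB : ∃ r ∈ R, α ⁅c, r⁆ = 1 ∧ α ⁅d, r⁆ = -1 := by
    rcases Int.units_eq_one_or (α ⁅c, r₂⁆) with h5 | h5
    · exact ⟨r₂, hr₂, h5, hur _ hr₂'⟩
    · refine ⟨r₂ * s₁, mul_mem hr₂ hs₁, ?_, ?_⟩
      · rw [hcm c hc r₂ hr₂ s₁ hs₁, h5, hs₁c]; decide
      · rw [hcm d hd r₂ hr₂ s₁ hs₁, hur _ hr₂', hs₁d]; decide
  obtain ⟨s₂, hs₂, hs₂c, hs₂d⟩ := hB
  -- the two halvings
  set K := LinearMap.ker (b i) with hK
  set U := wt σ Z₀ α with hU
  have hhalf1 : finrank (ZMod q) ((U ⊓ LinearMap.ker (σ c - 1)).map K.mkQ) ≤ 2 := by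
    refine half (q := q) h.q2 U K (σ c) (σ s₁) (fun w hw => ker_inv h hc hw) (fun w hw => hUR s₁ hs₁ w hw)
      (fun w hw => ker_inv' h hs₁ hw) (fun w hw => ker_inv h hs₁ hw) ?_ (n := 2) hsmall
    intro w hw
    rw [hcomm c hc s₁ hs₁ w hw, hs₁c]
    simp
  have hkc : ∀ w, w ∈ LinearMap.ker (σ c - 1) ↔ σ c w = w := by
    intro w
    rw [LinearMap.mem_ker, LinearMap.sub_apply, Module.End.one_apply, sub_eq_zero]
  have hkd : ∀ w, w ∈ LinearMap.ker (σ d - 1) ↔ σ d w = w := by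
    intro w
    rw [LinearMap.mem_ker, LinearMap.sub_apply, Module.End.one_apply, sub_eq_zero]
  have hhalf2 : finrank (ZMod q) ((U ⊓ LinearMap.ker (σ c - 1) ⊓ LinearMap.ker (σ d - 1)).map K.mkQ) ≤ 1 := by
    refine half (q := q) h.q2 (U ⊓ LinearMap.ker (σ c - 1)) K (σ d) (σ s₂) (fun w hw => ker_inv h hd hw) ?_
      (fun w hw => ker_inv' h hs₂ hw) (fun w hw => ker_inv h hs₂ hw) ?_ (n := 1) hhalf1
    · rintro w ⟨hw, hw'⟩
      refine ⟨hUR s₂ hs₂ w hw, ?_⟩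
      rw [SetLike.mem_coe, hkc] at hw' ⊢
      rw [hcomm c hc s₂ hs₂ w hw, hs₂c, hw']
      simp
    · rintro w ⟨hw, hw'⟩
      rw [hcomm d hd s₂ hs₂ w hw, hs₂d]
      simp
  -- a vector of the joint eigenspace outside the kernel
  have hstep : ∀ a ∈ R, α (a ^ 2) = 1 → ∀ s ∈ R, α ⁅a, s⁆ = -1 → ∀ w ∈ U, w ∉ K →
      ∃ v ∈ U, v ∉ K ∧ σ a v = v ∧ (v = w + σ a w ∨ v = σ s (w - σ a w)) := by
    intro a ha ha2 s hs has w hw hwK
    by_cases h1 : w + σ a w ∈ K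
    · refine ⟨σ s (w - σ a w), hUR s hs _ (sub_mem hw (hUR a ha w hw)), ?_, ?_, Or.inr rfl⟩
      · intro h2
        have h3 := ker_inv' h hs h2
        have h4 := add_mem h1 h3
        have e : w + σ a w + (w - σ a w) = (2 : ZMod q) • w := by rw [two_smul]; abel
        rw [e] at h4
        exact hwK ((K.smul_mem_iff (two_ne h.q2)).1 h4)
      · rw [hcomm a ha s hs _ (sub_mem hw (hUR a ha w hw)), has, map_sub, hsq a ha ha2 w hw, ← map_zsmul]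
        congr 1
        simp
    · exact ⟨w + σ a w, add_mem hw (hUR a ha w hw), h1, by rw [map_add, hsq a ha ha2 w hw, add_comm], Or.inl rfl⟩
  obtain ⟨v₁, hv₁, hv₁K, hv₁c, -⟩ := hstep c hc hc2 s₁ hs₁ hs₁c w₀ hw₀ hw₀K
  obtain ⟨u, hu, huK, hud, hu'⟩ := hstep d hd hd2 s₂ hs₂ hs₂d v₁ hv₁ hv₁K
  have hcdw : ∀ w ∈ U, σ c (σ d w) = σ d (σ c w) := by
    intro w hw
    rw [hcomm c hc d hd w hw, hcd]
    simp
  have huc : σ c u = u := by
    rcases hu' with rfl | rfl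
    · rw [map_add, hcdw v₁ hv₁, hv₁c]
    · rw [hcomm c hc s₂ hs₂ _ (sub_mem hv₁ (hUR d hd v₁ hv₁)), hs₂c, map_sub, hcdw v₁ hv₁, hv₁c]
      simp
  -- orthogonality
  apply huK
  rw [hK, LinearMap.mem_ker]
  have hE : ∀ w ∈ U, σ c w = w → σ d w = w → b i u w = 0 := by
    intro w hw hwc hwd
    have h1 : ∃ v : (U ⊓ LinearMap.ker (σ c - 1) ⊓ LinearMap.ker (σ d - 1)).map K.mkQ,
        ∀ x : (U ⊓ LinearMap.ker (σ c - 1) ⊓ LinearMap.ker (σ d - 1)).map K.mkQ, ∃ t : ZMod q, t • v = x :=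
      finrank_le_one_iff.1 hhalf2
    obtain ⟨⟨v, hv⟩, hv'⟩ := h1
    obtain ⟨v₀, hv₀, rfl⟩ := hv
    have hin : ∀ w ∈ U, σ c w = w → σ d w = w → ∃ t : ZMod q, w - t • v₀ ∈ K := by
      intro w hw hwc hwd
      obtain ⟨t, ht⟩ := hv' ⟨K.mkQ w, w, ⟨⟨hw, (hkc w).2 hwc⟩, (hkd w).2 hwd⟩, rfl⟩
      have h2 : t • K.mkQ v₀ = K.mkQ w := congrArg Subtype.val ht
      refine ⟨t, ?_⟩
      rw [← Submodule.Quotient.mk_eq_zero, Submodule.Quotient.mk_sub, sub_eq_zero]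
      rw [← map_smul] at h2
      exact h2.symm
    obtain ⟨t, ht⟩ := hin w hw hwc hwd
    obtain ⟨s, hs⟩ := hin u hu huc hud
    rw [hK, LinearMap.mem_ker] at ht hs
    have e1 : b i u = s • b i v₀ := by
      rw [map_sub, map_smul, sub_eq_zero] at hs
      exact hs
    have e2 : b i w = t • b i v₀ := by
      rw [map_sub, map_smul, sub_eq_zero] at ht
      exact ht
    rw [e1, LinearMap.smul_apply, skew h i v₀ w, e2, LinearMap.smul_apply, h.alt i v₀]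
    simp
  have hE' : ∀ w ∈ U, b i u w = 0 := by
    intro w hw
    -- average over `c`, `d`
    have h1 : ∀ x, b i u (σ c x) = b i u x := by
      intro x
      have := h.invR c hc i u x
      rwa [huc] at this
    have h2 : ∀ x, b i u (σ d x) = b i u x := by
      intro x
      have := h.invR d hd i u x
      rwa [hud] at this
    have h3 : σ c w + w ∈ U := add_mem (hUR c hc w hw) hw
    have h4 := hE (σ d (σ c w + w) + (σ c w + w)) (add_mem (hUR d hd _ h3) h3) (by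
      rw [map_add, hcdw _ h3, map_add, hsq c hc hc2 w hw, add_comm w]) (by
      rw [map_add, hsq d hd hd2 _ h3, add_comm])
    rw [map_add, h2, map_add, h1] at h4
    exact eq_zero_of_add_self (q := q) h.q2 (eq_zero_of_add_self (q := q) h.q2 h4)
  -- the projection onto the weight space
  ext w
  rw [LinearMap.zero_apply]
  have : Fintype Z₀ := Fintype.ofFinite Z₀
  have hproj : ∑ a : Z₀, ((α a : ℤˣ) : ℤ) • σ a w ∈ U := by
    intro a ha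
    rw [map_sum, Finset.smul_sum]
    refine Fintype.sum_equiv (Equiv.mulLeft (⟨a, ha⟩ : Z₀)) _ _ ?_
    intro x
    show σ a (((α x : ℤˣ) : ℤ) • σ x w) = ((α a : ℤˣ) : ℤ) • ((α (a * x) : ℤˣ) : ℤ) • σ (a * x) w
    rw [map_zsmul, map_mul, Module.End.mul_apply, smul_smul, hmul a ha x x.2, Units.val_mul, ← mul_assoc]
    have : ((α a : ℤˣ) : ℤ) * ((α a : ℤˣ) : ℤ) = 1 := Int.units_coe_mul_self (α a)
    rw [this, one_mul]
  have h5 := hE' _ hproj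
  have h6 : ∀ a : Z₀, b i u (((α a : ℤˣ) : ℤ) • σ a w) = b i u w := by
    intro a
    have h7 := h.invR a (hZ₀R a.2) i u w
    rw [mem_wt.1 hu a a.2] at h7
    rw [map_zsmul, ← LinearMap.smul_apply, ← map_zsmul]
    exact h7
  rw [map_sum, Finset.sum_congr rfl fun a _ => h6 a, Finset.sum_const, Finset.card_univ,
    ← Nat.card_eq_fintype_card, nsmul_eq_mul] at h5
  refine (mul_eq_zero.1 h5).resolve_left ?_
  have hp : IsPGroup 2 Z₀ := by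
    rintro ⟨a, ha⟩
    exact ⟨1, by rw [pow_one]; exact Subtype.ext (hZ₀2 a ha)⟩
  obtain ⟨n, hn⟩ := IsPGroup.iff_card.1 hp
  rw [hn]
  push_cast
  exact pow_ne_zero n (two_ne h.q2)

end Cfsg.Agent.H979.TwoLen5N
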