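import Mathlib
import Cfsg.Prelude.Def_Local
import Cfsg.Agent.H552.Defs
import Cfsg.Agent.H979.TwoLenA

/-!
# The final contradiction (part F of helper552's plan for S4258)
-/

set_option autoImplicit false

universe u

namespace Cfsg.Agent.H979.TwoLenF

open Cfsg Cfsg.Agent.H552

section Sign

variable {X : Type*} [Group X]

/-- `g` acts trivially on `L / κ` -/
def Pos (L κ : Subgroup X) (g : X) : Prop := ∀ a ∈ L, g * a * g⁻¹ * a⁻¹ ∈ κ

/-- `g` inverts `L / κ` -/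
def Neg (L κ : Subgroup X) (g : X) : Prop := ∀ a ∈ L, g * a * g⁻¹ * a ∈ κ

variable {L κ : Subgroup X} (hL : L.Normal) (hab : ∀ a ∈ L, ∀ b ∈ L, a * b = b * a) (hκ : κ ≤ L)
include hL hab hκ

theorem Pos.conj_mem {g : X} (h : Pos L κ g) {c : X} (hc : c ∈ κ) : g * c * g⁻¹ ∈ κ := by
  have := mul_mem (h c (hκ hc)) hc
  simpa [mul_assoc] using this

theorem Neg.conj_mem {g : X} (h : Neg L κ g) {c : X} (hc : c ∈ κ) : g * c * g⁻¹ ∈ κ := by
  have := mul_mem (h c (hκ hc)) (inv_mem hc)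
  simpa [mul_assoc] using this

theorem Pos.mul {g h : X} (hg : Pos L κ g) (hh : Pos L κ h) : Pos L κ (g * h) := by
  intro a ha
  have h1 := hh a ha
  have h2 := Pos.conj_mem hL hab hκ hg h1
  have h3 := mul_mem h2 (hg a ha)
  have e : g * (h * a * h⁻¹ * a⁻¹) * g⁻¹ * (g * a * g⁻¹ * a⁻¹) = g * h * a * (g * h)⁻¹ * a⁻¹ := by group
  rwa [e] at h3

theorem Pos.mul_neg {g h : X} (hg : Pos L κ g) (hh : Neg L κ h) : Neg L κ (g * h) := by
  intro a ha
  have h1 := hh a ha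
  have h2 := Pos.conj_mem hL hab hκ hg h1
  have h3 := mul_mem h2 (inv_mem (hg a ha))
  have ha' : g * a * g⁻¹ ∈ L := hL.conj_mem a ha g
  have e : g * (h * a * h⁻¹ * a) * g⁻¹ * (g * a * g⁻¹ * a⁻¹)⁻¹ =
      g * h * a * (g * h)⁻¹ * ((g * a * g⁻¹) * a * (g * a * g⁻¹)⁻¹) := by group
  rw [e, hab _ ha' a ha, mul_assoc a, mul_inv_cancel, mul_one] at h3
  exact h3

theorem Neg.mul_pos {g h : X} (hg : Neg L κ g) (hh : Pos L κ h) : Neg L κ (g * h) := by
  intro a ha
  have h1 := hh a ha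
  have h2 := Neg.conj_mem hL hab hκ hg h1
  have h3 := mul_mem h2 (hg a ha)
  have e : g * (h * a * h⁻¹ * a⁻¹) * g⁻¹ * (g * a * g⁻¹ * a) = g * h * a * (g * h)⁻¹ * a := by group
  rwa [e] at h3

theorem Neg.mul {g h : X} (hg : Neg L κ g) (hh : Neg L κ h) : Pos L κ (g * h) := by
  intro a ha
  have h1 := hh a ha
  have h2 := Neg.conj_mem hL hab hκ hg h1
  have h3 := mul_mem h2 (inv_mem (hg a ha))
  have ha' : g * a * g⁻¹ ∈ L := hL.conj_mem a ha g
  have e : g * (h * a * h⁻¹ * a) * g⁻¹ * (g * a * g⁻¹ * a)⁻¹ =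
      g * h * a * (g * h)⁻¹ * ((g * a * g⁻¹) * a⁻¹ * (g * a * g⁻¹)⁻¹) := by group
  rw [e, hab _ ha' a⁻¹ (inv_mem ha), mul_assoc a⁻¹, mul_inv_cancel, mul_one] at h3
  exact h3

theorem Pos.inv {g : X} (hg : Pos L κ g) : Pos L κ g⁻¹ := by
  intro a ha
  have hb : g⁻¹ * a * g ∈ L := by simpa using hL.conj_mem a ha g⁻¹
  have h1 := inv_mem (hg _ hb)
  have e : (g * (g⁻¹ * a * g) * g⁻¹ * (g⁻¹ * a * g)⁻¹)⁻¹ = g⁻¹ * a * g⁻¹⁻¹ * a⁻¹ := by group
  rwa [e] at h1

theorem Neg.inv {g : X} (hg : Neg L κ g) : Neg L κ g⁻¹ := by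
  intro a ha
  have hb : g⁻¹ * a * g ∈ L := by simpa using hL.conj_mem a ha g⁻¹
  have h1 := hg _ hb
  have e : g * (g⁻¹ * a * g) * g⁻¹ * (g⁻¹ * a * g) = a * (g⁻¹ * a * g) := by group
  rw [e, hab a ha _ hb] at h1
  simpa [mul_assoc] using h1

/-- conjugation by an element normalizing `κ` -/
theorem Pos.conj {g u : X} (hg : Pos L κ g) (hu : u ∈ Subgroup.normalizer (κ : Set X)) :
    Pos L κ (u * g * u⁻¹) := by
  intro a ha
  have hb : u⁻¹ * a * u ∈ L := by simpa using hL.conj_mem a ha u⁻¹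
  have h1 := (Subgroup.mem_normalizer_iff.1 hu _).1 (hg _ hb)
  have e : u * (g * (u⁻¹ * a * u) * g⁻¹ * (u⁻¹ * a * u)⁻¹) * u⁻¹ = u * g * u⁻¹ * a * (u * g * u⁻¹)⁻¹ * a⁻¹ := by
    group
  rwa [e] at h1

theorem Neg.conj {g u : X} (hg : Neg L κ g) (hu : u ∈ Subgroup.normalizer (κ : Set X)) :
    Neg L κ (u * g * u⁻¹) := by
  intro a ha
  have hb : u⁻¹ * a * u ∈ L := by simpa using hL.conj_mem a ha u⁻¹
  have h1 := (Subgroup.mem_normalizer_iff.1 hu _).1 (hg _ hb)
  have e : u * (g * (u⁻¹ * a * u) * g⁻¹ * (u⁻¹ * a * u)) * u⁻¹ = u * g * u⁻¹ * a * (u * g * u⁻¹)⁻¹ * a := by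
    group
  rwa [e] at h1

theorem Pos.mem_normalizer {g : X} (hg : Pos L κ g) : g ∈ Subgroup.normalizer (κ : Set X) := by
  rw [Subgroup.mem_normalizer_iff]
  intro c
  refine ⟨fun hc => Pos.conj_mem hL hab hκ hg hc, fun hc => ?_⟩
  have := Pos.conj_mem hL hab hκ (Pos.inv hL hab hκ hg) hc
  simpa [mul_assoc] using this

theorem Neg.mem_normalizer {g : X} (hg : Neg L κ g) : g ∈ Subgroup.normalizer (κ : Set X) := by
  rw [Subgroup.mem_normalizer_iff]
  intro c
  refine ⟨fun hc => Neg.conj_mem hL hab hκ hg hc, fun hc => ?_⟩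
  have := Neg.conj_mem hL hab hκ (Neg.inv hL hab hκ hg) hc
  simpa [mul_assoc] using this

omit hκ in
/-- an involution normalizing `κ` of prime index acts as `±1` -/
theorem pos_or_neg (hi : (κ.relIndex L).Prime) {t : X} (ht : t ∈ Subgroup.normalizer (κ : Set X))
    (ht2 : t * t = 1) (hκ : κ ≤ L) : Pos L κ t ∨ Neg L κ t := by
  let P : Subgroup X :=
    { carrier := {a | a ∈ L ∧ t * a * t⁻¹ * a⁻¹ ∈ κ}
      one_mem' := ⟨one_mem _, by simp⟩
      mul_mem' := by
        rintro a b ⟨ha, ha'⟩ ⟨hb, hb'⟩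
        refine ⟨mul_mem ha hb, ?_⟩
        have e : t * (a * b) * t⁻¹ * (a * b)⁻¹ = (t * a * t⁻¹) * (t * b * t⁻¹ * b⁻¹) * a⁻¹ := by group
        have h1 : t * b * t⁻¹ * b⁻¹ ∈ L := mul_mem (hL.conj_mem b hb t) (inv_mem hb)
        rw [e, hab _ (hL.conj_mem a ha t) _ h1, mul_assoc]
        exact mul_mem hb' ha'
      inv_mem' := by
        rintro a ⟨ha, ha'⟩
        refine ⟨inv_mem ha, ?_⟩
        have e : t * a⁻¹ * t⁻¹ * a⁻¹⁻¹ = (a⁻¹ * (t * a * t⁻¹))⁻¹ := by group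
        rw [e, ← hab _ (hL.conj_mem a ha t) _ (inv_mem ha)]
        exact inv_mem ha' }
  have hPL : P ≤ L := fun a ha => ha.1
  have hκP : κ ≤ P := fun a ha =>
    ⟨hκ ha, mul_mem ((Subgroup.mem_normalizer_iff.1 ht a).1 ha) (inv_mem ha)⟩
  have hmul := Subgroup.relIndex_mul_relIndex κ P L hκP hPL
  rw [← hmul] at hi
  rcases Nat.prime_mul_iff.1 hi with ⟨-, h⟩ | ⟨-, h⟩
  · left
    intro a ha
    exact ((Subgroup.relIndex_eq_one.1 h) ha).2
  · right
    intro a ha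
    have hta : t⁻¹ = t := inv_eq_of_mul_eq_one_left ht2
    have h1 : t * a * t⁻¹ ∈ L := hL.conj_mem a ha t
    have h2 : t * a * t⁻¹ * a ∈ P := by
      refine ⟨mul_mem h1 ha, ?_⟩
      have e : t * (t * a * t⁻¹ * a) * t⁻¹ = a * (t * a * t⁻¹) := by
        calc t * (t * a * t⁻¹ * a) * t⁻¹ = (t * t) * a * (t⁻¹ * a * t⁻¹) := by group
          _ = a * (t * a * t⁻¹) := by rw [ht2, one_mul, hta]
      rw [e, hab a ha _ h1, mul_inv_cancel]
      exact one_mem _
    exact (Subgroup.relIndex_eq_one.1 h) h2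

omit hκ hL in
theorem not_pos_of_neg (hi : κ.relIndex L = 5) {t : X} (h : Neg L κ t) : ¬ Pos L κ t := by
  intro h'
  have h2 : ∀ a ∈ L, a ^ 2 ∈ κ := by
    intro a ha
    have := mul_mem (inv_mem (h' a ha)) (h a ha)
    have e : (t * a * t⁻¹ * a⁻¹)⁻¹ * (t * a * t⁻¹ * a) = a ^ 2 := by rw [pow_two]; group
    rwa [e] at this
  have h5 : ∀ a ∈ L, a ^ 5 ∈ κ := by
    intro a ha
    have hn : (κ.subgroupOf L).Normal := by
      refine ⟨fun n hn g => ?_⟩
      have : g * n * g⁻¹ = n := by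
        apply Subtype.ext
        push_cast
        rw [hab g g.2 n n.2, mul_assoc, mul_inv_cancel, mul_one]
      rwa [this]
    have := Subgroup.pow_index_mem (κ.subgroupOf L) ⟨a, ha⟩
    have hi' : (κ.subgroupOf L).index = 5 := hi
    rw [hi', Subgroup.mem_subgroupOf] at this
    exact this
  have h1 : L ≤ κ := by
    intro a ha
    have := mul_mem (h5 a ha) (inv_mem (mul_mem (h2 a ha) (h2 a ha)))
    have e : a ^ 5 * (a ^ 2 * a ^ 2)⁻¹ = a := by group
    rwa [e] at this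
  rw [Subgroup.relIndex_eq_one.2 h1] at hi
  omega

end Sign

/-- a finite group generated by elements of odd order with a central `2`-subgroup of odd index has odd order -/
theorem odd_of_central {S : Type*} [Group S] [Finite S] (F : Subgroup S) (hF : F ≤ Subgroup.center S)
    (hF2 : ∀ f ∈ F, IsTwo f) (hodd : Odd F.index) (hgen : oddGen (⊤ : Subgroup S) = ⊤) : Odd (Nat.card S) := by
  have hn : Odd (Subgroup.center S).index := Odd.of_dvd_nat hodd (Subgroup.index_dvd_of_le hF)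
  have hall : ∀ x : S, Odd (orderOf (MonoidHom.transferCenterPow S x)) := by
    intro x
    have hx : x ∈ oddGen (⊤ : Subgroup S) := by rw [hgen]; trivial
    refine Subgroup.closure_induction (p := fun y _ => Odd (orderOf (MonoidHom.transferCenterPow S y))) ?_ ?_ ?_ ?_ hx
    · intro y hy
      exact Odd.of_dvd_nat hy.2 (orderOf_map_dvd _ y)
    · rw [map_one, orderOf_one]; exact odd_one
    · intro y z _ _ hy hz
      rw [map_mul]
      have hc : Commute (MonoidHom.transferCenterPow S y) (MonoidHom.transferCenterPow S z) :=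
        Subtype.ext (((Subgroup.mem_center_iff.1 (MonoidHom.transferCenterPow S y).2) _).symm)
      exact Odd.of_dvd_nat (hy.mul hz) (hc.orderOf_mul_dvd_mul_orderOf)
    · intro y _ hy
      rw [map_inv, orderOf_inv]; exact hy
  have hbot : F = ⊥ := by
    rw [eq_bot_iff]
    intro f hf
    have h1 := hall f
    rw [← Subgroup.orderOf_coe, MonoidHom.transferCenterPow_apply] at h1
    obtain ⟨j, hj⟩ := isTwo_iff_orderOf.1 (hF2 f hf)
    have h2 : orderOf (f ^ (Subgroup.center S).index) = orderOf f := by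
      apply Nat.Coprime.orderOf_pow
      rw [hj]
      exact Nat.Coprime.pow_left _ (Nat.coprime_two_left.2 hn)
    rw [h2] at h1
    exact Subgroup.mem_bot.2 (eq_one_of_isTwo_of_odd (hF2 f hf) h1)
  rw [hbot, Subgroup.index_bot] at hodd
  exact hodd

/-- the elements of `L`-sign `±1` for all `κ ∈ 𝒦` -/
def signGroup {X : Type*} [Group X] {L : Subgroup X} (hL : L.Normal) (hab : ∀ a ∈ L, ∀ b ∈ L, a * b = b * a)
    (𝒦 : Set (Subgroup X)) (hκ : ∀ κ ∈ 𝒦, κ ≤ L) : Subgroup X where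
  carrier := {g | ∀ κ ∈ 𝒦, Pos L κ g ∨ Neg L κ g}
  one_mem' := fun κ _ => Or.inl fun a _ => by simp
  mul_mem' := by
    intro g h hg hh κ hκ'
    rcases hg κ hκ' with h1 | h1 <;> rcases hh κ hκ' with h2 | h2
    · exact Or.inl (Pos.mul hL hab (hκ κ hκ') h1 h2)
    · exact Or.inr (Pos.mul_neg hL hab (hκ κ hκ') h1 h2)
    · exact Or.inr (Neg.mul_pos hL hab (hκ κ hκ') h1 h2)
    · exact Or.inl (Neg.mul hL hab (hκ κ hκ') h1 h2)
  inv_mem' := by
    intro g hg κ hκ'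
    rcases hg κ hκ' with h1 | h1
    · exact Or.inl (Pos.inv hL hab (hκ κ hκ') h1)
    · exact Or.inr (Neg.inv hL hab (hκ κ hκ') h1)

/-- **Part F of the plan for S4258.** -/
theorem final {k : ℕ} (hk : 1 ≤ k) (X : Type u) [Group X] [Finite X] (hX : IsPSolvable 2 X)
    (hC : Crit.{u} k X)
    (hP : ∀ x : X, IsTwo x → (∀ a ∈ T k (⊤ : Subgroup X), x * a = a * x) → x = 1)
    (hE : 2 ≤ k → ∀ (Y : Type u) [Group Y] [Finite Y], IsPSolvable 2 Y → EAt.{u} (k - 1) Y)
    (hM : 2 ≤ k → ∀ (Y : Type u) [Group Y] [Finite Y], IsPSolvable 2 Y →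
      (∀ y : Y, IsTwo y → y ^ 2 ^ (k - 1) = 1) → Odd (Nat.card (T (k - 1) (⊤ : Subgroup Y))))
    (hab : ∀ a ∈ T k (⊤ : Subgroup X), ∀ b ∈ T k (⊤ : Subgroup X), a * b = b * a)
    (hexp : ∀ x : X, IsTwo x → x ^ 2 ^ k = 1)
    (𝒦 : Set (Subgroup X))
    (hκ : ∀ κ ∈ 𝒦, κ ≤ T k (⊤ : Subgroup X) ∧ κ.relIndex (T k (⊤ : Subgroup X)) = 5)
    (hκ0 : ∀ a ∈ T k (⊤ : Subgroup X), (∀ κ ∈ 𝒦, a ∈ κ) → a = 1)
    (hstar : ∀ x : X, IsTwo x → ∀ κ ∈ 𝒦, x ^ 2 ^ (k - 1) ∈ Subgroup.normalizer (κ : Set X) ∧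
      ((∃ a ∈ T k (⊤ : Subgroup X), x ^ 2 ^ (k - 1) * a * (x ^ 2 ^ (k - 1))⁻¹ * a⁻¹ ∉ κ) →
        2 ≤ k ∧ x ^ 2 ^ (k - 2) ∈ Subgroup.normalizer (κ : Set X))) : False := by
  have hL : (T k (⊤ : Subgroup X)).Normal := T_normal k inferInstance
  have hκ' : ∀ κ ∈ 𝒦, κ ≤ T k (⊤ : Subgroup X) := fun κ h => (hκ κ h).1
  -- it is enough to kill the 2-elements of `T (k - 1) X`
  have hfin : (∀ x ∈ T (k - 1) (⊤ : Subgroup X), IsTwo x → x = 1) → False := by
    intro h
    apply hC.ne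
    obtain ⟨j, rfl⟩ : ∃ j, k = j + 1 := ⟨k - 1, by omega⟩
    rw [eq_bot_iff, T_succ]
    refine (oddGen_le _).trans ?_
    refine (Subgroup.closure_le _).2 ?_
    rintro x ⟨hx, hx2⟩
    exact h x hx hx2
  have hCpos : ∀ κ : Subgroup X, ∀ c ∈ Subgroup.centralizer ((T k (⊤ : Subgroup X) : Subgroup X) : Set X),
      Pos (T k (⊤ : Subgroup X)) κ c := by
    intro κ c hc a ha
    have h1 : a * c = c * a := Subgroup.mem_centralizer_iff.1 hc a ha
    rw [← h1, mul_assoc a, mul_inv_cancel, mul_one, mul_inv_cancel]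
    exact one_mem _
  have hCof : ∀ g : X, (∀ κ ∈ 𝒦, Pos (T k (⊤ : Subgroup X)) κ g) →
      g ∈ Subgroup.centralizer ((T k (⊤ : Subgroup X) : Subgroup X) : Set X) := by
    intro g hg
    rw [Subgroup.mem_centralizer_iff]
    intro a ha
    have h1 : g * a * g⁻¹ * a⁻¹ = 1 :=
      hκ0 _ (mul_mem (hL.conj_mem a ha g) (inv_mem ha)) fun κ h => hg κ h a ha
    rw [mul_inv_eq_one, mul_inv_eq_iff_eq_mul] at h1
    exact h1.symm
  have hsq : ∀ x : X, IsTwo x → x ^ 2 ^ (k - 1) * x ^ 2 ^ (k - 1) = 1 := by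
    intro x hx
    rw [← pow_add, ← two_mul, ← pow_succ', Nat.sub_add_cancel hk]
    exact hexp x hx
  have hsign : ∀ x : X, IsTwo x → ∀ κ ∈ 𝒦, Pos (T k (⊤ : Subgroup X)) κ (x ^ 2 ^ (k - 1)) ∨
      Neg (T k (⊤ : Subgroup X)) κ (x ^ 2 ^ (k - 1)) := by
    intro x hx κ h
    refine pos_or_neg hL hab ?_ (hstar x hx κ h).1 (hsq x hx) (hκ' κ h)
    rw [(hκ κ h).2]
    norm_num
  rcases Nat.lt_or_ge k 2 with hk2 | hk2
  · -- k = 1
    obtain rfl : k = 1 := by omega
    apply hfin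
    intro x _ hx
    apply hP x hx
    have h1 : x ∈ Subgroup.centralizer ((T 1 (⊤ : Subgroup X) : Subgroup X) : Set X) := by
      apply hCof
      intro κ h a ha
      by_contra hn
      have := (hstar x hx κ h).2 ⟨a, ha, by simpa using hn⟩
      omega
    intro a ha
    exact (Subgroup.mem_centralizer_iff.1 h1 a ha).symm
  -- k ≥ 2
  have hCn : (Subgroup.centralizer ((T k (⊤ : Subgroup X) : Subgroup X) : Set X)).Normal := inferInstance
  set C := Subgroup.centralizer ((T k (⊤ : Subgroup X) : Subgroup X) : Set X) with hCdef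
  let E : Subgroup X := Subgroup.normalClosure ({g | ∃ x, IsTwo x ∧ g = x ^ 2 ^ (k - 1)} ∪ (C : Set X))
  have hEn : E.Normal := Subgroup.normalClosure_normal
  have hCE : C ≤ E := fun c hc => Subgroup.subset_normalClosure (Or.inr hc)
  have hEA : E ≤ signGroup hL hab 𝒦 hκ' := by
    refine (Subgroup.closure_le _).2 ?_
    intro g hg
    obtain ⟨y, hy, hyg⟩ := Group.mem_conjugatesOfSet_iff.1 hg
    obtain ⟨c, rfl⟩ := isConj_iff.1 hyg
    intro κ h
    rcases hy with ⟨x, hx, rfl⟩ | hy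
    · have := hsign (c * x * c⁻¹) (hx.conj c) κ h
      rwa [conj_pow] at this
    · exact Or.inl (hCpos κ _ (hCn.conj_mem y hy c))
  have hE2 : ∀ g ∈ E, g * g ∈ C := by
    intro g hg
    apply hCof
    intro κ h
    rcases hEA hg κ h with h1 | h1
    · exact Pos.mul hL hab (hκ' κ h) h1 h1
    · exact Neg.mul hL hab (hκ' κ h) h1 h1
  have hEc : ∀ g ∈ E, ∀ h ∈ E, g * h * g⁻¹ * h⁻¹ ∈ C := by
    intro g hg h hh
    have h1 := hE2 (g * h) (mul_mem hg hh)
    have h2 := hE2 g hg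
    have h3 := hE2 h hh
    -- g h g⁻¹ h⁻¹ = (g h g h) * (h⁻¹ g⁻² h) * h⁻²
    have e : g * h * g⁻¹ * h⁻¹ = (g * h * (g * h)) * (h⁻¹ * (g * g)⁻¹ * h⁻¹⁻¹) * (h * h)⁻¹ := by group
    rw [e]
    exact mul_mem (mul_mem h1 (hCn.conj_mem _ (inv_mem h2) h⁻¹)) (inv_mem h3)
  -- the 2-elements of `T (k - 1) X` lie in `E`
  have hTE : ∀ x ∈ T (k - 1) (⊤ : Subgroup X), IsTwo x → x ∈ E := by
    intro x hx hx2
    have h1 : Odd (Nat.card (T (k - 1) (⊤ : Subgroup (X ⧸ E)))) := by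
      apply hM hk2
      · exact Lib.PSolvable.IsPSolvable_of_surjective 2 hX (QuotientGroup.mk' E) (QuotientGroup.mk'_surjective _)
      · intro y hy
        obtain ⟨z, rfl⟩ := QuotientGroup.mk'_surjective _ y
        obtain ⟨n, hn, hzn⟩ := exists_two_lift (QuotientGroup.mk' E) z hy
        rw [← hzn, ← map_pow]
        exact (QuotientGroup.eq_one_iff _).2 (Subgroup.subset_normalClosure (Or.inl ⟨_, hn, rfl⟩))
    have h2 : QuotientGroup.mk' E x ∈ T (k - 1) (⊤ : Subgroup (X ⧸ E)) := by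
      rw [← T_map_top _ (QuotientGroup.mk'_surjective _)]
      exact ⟨x, hx, rfl⟩
    have h3 : Odd (orderOf (QuotientGroup.mk' E x)) :=
      Odd.of_dvd_nat h1 (Subgroup.orderOf_dvd_natCard _ h2)
    exact (QuotientGroup.eq_one_iff _).1 (eq_one_of_isTwo_of_odd (hx2.map (QuotientGroup.mk' E)) h3)
  -- the module `E / C`
  obtain ⟨V, i1, i2, π, hsurj, hadd, hker, -⟩ :=
    OddOrderCharacters.PF9.SectionModule.exists_module 2 E C
      (fun h _ c hc => hCn.conj_mem c hc h) (fun a ha b hb => hEc a ha b hb)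
      (fun a ha => by rw [pow_two]; exact hE2 a ha)
  obtain ⟨ρ, hρ⟩ := OddOrderCharacters.PF9.SectionModule.exists_rep_normal (p := 2) hsurj hadd hker hEn hCn
  have hπ1 : π 1 = 0 := OddOrderCharacters.PF9.SectionModule.pi_one hadd
  have hVfin : Finite V := Finite.of_surjective _ hsurj
  by_cases hall : ∀ y : X, IsTwo y → (ρ y - 1) ^ (2 ^ (k - 1) - 1) = 0
  · -- `T (k - 1) X` centralizes `E / C`
    have htriv := hE hk2 X hX V ρ hall
    apply hfin
    -- the group `S = T (k - 1) (X / C)`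
    obtain ⟨j, hj⟩ : ∃ j, k - 1 = j + 1 := ⟨k - 2, by omega⟩
    have hSmem : ∀ s : X ⧸ C, s ∈ T (k - 1) (⊤ : Subgroup (X ⧸ C)) →
        ∃ h ∈ T (k - 1) (⊤ : Subgroup X), QuotientGroup.mk' C h = s := by
      intro s hs
      rw [← T_map_top _ (QuotientGroup.mk'_surjective C)] at hs
      exact hs
    have hodd : Odd (Nat.card (T (k - 1) (⊤ : Subgroup (X ⧸ C)))) := by
      set S := T (k - 1) (⊤ : Subgroup (X ⧸ C)) with hS
      set F : Subgroup S := (E.map (QuotientGroup.mk' C)).subgroupOf S with hF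
      have hFc : F ≤ Subgroup.center S := by
        intro f hf
        obtain ⟨g, hg, hgf⟩ := hf
        rw [Subgroup.mem_center_iff]
        intro s
        obtain ⟨h, hh, hhs⟩ := hSmem s s.2
        apply Subtype.ext
        push_cast
        change QuotientGroup.mk' C g = (f : X ⧸ C) at hgf
        rw [← hgf, ← hhs, ← map_mul, ← map_mul]
        have h1 := congrArg (fun φ => φ (π ⟨g, hg⟩)) (htriv h hh)
        simp only [Module.End.one_apply] at h1
        rw [hρ] at h1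
        have h2 := (OddOrderCharacters.PF9.SectionModule.pi_eq_iff hadd hker _ _).1 h1
        change (h * g * h⁻¹)⁻¹ * g ∈ C at h2
        -- h g = g h modulo C
        have h3 : QuotientGroup.mk' C (h * g * h⁻¹) = QuotientGroup.mk' C g :=
          QuotientGroup.eq.2 h2
        have h4 : h * g = h * g * h⁻¹ * h := by group
        rw [h4, map_mul, h3, ← map_mul]
      have hFn : F.Normal := by
        refine ⟨fun n hn g => ?_⟩
        have := (Subgroup.mem_center_iff.1 (hFc hn) g)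
        rw [this, mul_assoc, mul_inv_cancel, mul_one]
        exact hn
      refine odd_of_central F hFc ?_ ?_ ?_
      · intro f hf
        obtain ⟨g, hg, hgf⟩ := hf
        refine ⟨1, Subtype.ext ?_⟩
        change QuotientGroup.mk' C g = (f : X ⧸ C) at hgf
        push_cast
        rw [← hgf, ← map_pow, pow_two]
        exact (QuotientGroup.eq_one_iff _).2 (hE2 g hg)
      · rw [Subgroup.index]
        apply TwoLenA.odd_card_of_odd_orderOf
        intro q
        obtain ⟨s, rfl⟩ := QuotientGroup.mk'_surjective _ q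
        obtain ⟨h, hh, hhs⟩ := hSmem s s.2
        -- `h` has an odd power in `E`
        obtain ⟨m, n, hm, hn, hmn⟩ := exists_odd_mul_two h
        have h1 : h ^ n ∈ E := hTE _ (pow_mem hh n) hn
        have h2 : h ^ (orderOf (h ^ m)) ∈ E := by
          have h3 : h ^ orderOf (h ^ m) = (h ^ m) ^ orderOf (h ^ m) * (h ^ n) ^ orderOf (h ^ m) := by
            rw [← (Commute.refl h).pow_pow m n |>.mul_pow]
            rw [← hmn]
          rw [h3, pow_orderOf_eq_one, one_mul]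
          exact pow_mem h1 _
        have h3 : (QuotientGroup.mk' F s) ^ (orderOf (h ^ m)) = 1 := by
          rw [← map_pow]
          refine (QuotientGroup.eq_one_iff _).2 ?_
          refine Subgroup.mem_subgroupOf.2 ⟨_, h2, ?_⟩
          rw [map_pow, hhs]
          rfl
        exact Odd.of_dvd_nat hm (orderOf_dvd_of_pow_eq_one h3)
      · have h1 : (oddGen (⊤ : Subgroup S)).map S.subtype = (⊤ : Subgroup S).map S.subtype := by
          rw [oddGen_map, ← MonoidHom.range_eq_map, Subgroup.range_subtype, hS, hj, oddGen_T_succ]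
        exact Subgroup.map_injective S.subtype_injective h1
    intro x hx hx2
    apply hP x hx2
    have h2 : QuotientGroup.mk' C x ∈ T (k - 1) (⊤ : Subgroup (X ⧸ C)) := by
      rw [← T_map_top _ (QuotientGroup.mk'_surjective _)]
      exact ⟨x, hx, rfl⟩
    have h3 : Odd (orderOf (QuotientGroup.mk' C x)) :=
      Odd.of_dvd_nat hodd (Subgroup.orderOf_dvd_natCard _ h2)
    have h4 : x ∈ C := (QuotientGroup.eq_one_iff _).1 (eq_one_of_isTwo_of_odd (hx2.map (QuotientGroup.mk' C)) h3)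
    intro a ha
    exact (Subgroup.mem_centralizer_iff.1 h4 a ha).symm
  · -- a bad 2-element
    push Not at hall
    obtain ⟨x, hx, hne⟩ := hall
    rw [TwoLenA.sub_one_pow] at hne
    obtain ⟨v, hv⟩ : ∃ v, (∑ i ∈ Finset.range (2 ^ (k - 1)), (ρ x) ^ i) v ≠ 0 := by
      by_contra hcon
      push Not at hcon
      exact hne (LinearMap.ext hcon)
    obtain ⟨d, rfl⟩ := hsurj v
    obtain ⟨w, hw, hπw⟩ := TwoLenA.exists_mul_pow E π hadd hπ1 ρ hρ x d (2 ^ (k - 1))
    obtain ⟨w', hw', -⟩ := TwoLenA.exists_mul_pow E π hadd hπ1 ρ hρ x d (2 ^ (k - 2))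
    have hpow : 2 ^ (k - 1) = 2 ^ (k - 2) + 2 ^ (k - 2) := by
      rw [← two_mul, ← pow_succ']
      congr 1
      omega
    have hwC : (w : X) ∉ C := by
      intro h
      exact hv (by rw [← hπw]; exact (hker w).2 h)
    -- `w = w' (u w' u⁻¹)`
    have hww : (w : X) = w' * (x ^ 2 ^ (k - 2) * w' * (x ^ 2 ^ (k - 2))⁻¹) := by
      have h1 : ((d : X) * x) ^ 2 ^ (k - 1) = ((d : X) * x) ^ 2 ^ (k - 2) * ((d : X) * x) ^ 2 ^ (k - 2) := by
        rw [hpow, pow_add]
      rw [hw, hw', hpow, pow_add] at h1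
      have h2 : (w : X) = (w' * x ^ 2 ^ (k - 2) * (w' * x ^ 2 ^ (k - 2))) * (x ^ 2 ^ (k - 2) * x ^ 2 ^ (k - 2))⁻¹ := by
        rw [← h1]; group
      rw [h2]; group
    obtain ⟨κ, hκm, hnp⟩ : ∃ κ ∈ 𝒦, ¬ Pos (T k (⊤ : Subgroup X)) κ w := by
      by_contra hcon
      push Not at hcon
      exact hwC (hCof _ hcon)
    have hneg : Neg (T k (⊤ : Subgroup X)) κ w := (hEA w.2 κ hκm).resolve_left hnp
    have hκL := hκ' κ hκm
    have hi := (hκ κ hκm).2
    -- the 2-element `x'` congruent to `d x` modulo `C`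
    have htwo : IsTwo (QuotientGroup.mk' C ((d : X) * x)) := by
      obtain ⟨j, hj⟩ := hx
      obtain ⟨w₁, hw₁, -⟩ := TwoLenA.exists_mul_pow E π hadd hπ1 ρ hρ x d (2 ^ j)
      rw [hj, mul_one] at hw₁
      refine ⟨j + 1, ?_⟩
      rw [pow_succ, pow_mul, ← map_pow, hw₁, ← map_pow, pow_two]
      exact (QuotientGroup.eq_one_iff _).2 (hE2 _ w₁.2)
    obtain ⟨n, hn, hxn⟩ := exists_two_lift (QuotientGroup.mk' C) ((d : X) * x) htwo
    set x' := ((d : X) * x) ^ n with hx'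
    have hmod : ∀ m, ∃ c ∈ C, x' ^ m = c * ((d : X) * x) ^ m := by
      intro m
      have h1 : QuotientGroup.mk' C (((d : X) * x) ^ m) = QuotientGroup.mk' C (x' ^ m) := by
        rw [map_pow, map_pow, hxn]
      have h2 : x' ^ m * (((d : X) * x) ^ m)⁻¹ ∈ C := by
        refine (QuotientGroup.eq_one_iff _).1 ?_
        change QuotientGroup.mk' C (x' ^ m * (((d : X) * x) ^ m)⁻¹) = 1
        rw [map_mul, map_inv, ← h1, mul_inv_cancel]
      exact ⟨_, h2, by group⟩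
    have hunorm : x ^ 2 ^ (k - 2) ∈ Subgroup.normalizer (κ : Set X) := by
      rcases hsign x hx κ hκm with hp | hp
      · -- positive sign: use `x'`
        obtain ⟨c, hc, hcx⟩ := hmod (2 ^ (k - 1))
        rw [hw] at hcx
        have h1 : Neg (T k (⊤ : Subgroup X)) κ (x' ^ 2 ^ (k - 1)) := by
          rw [hcx]
          exact Pos.mul_neg hL hab hκL (hCpos κ c hc) (Neg.mul_pos hL hab hκL hneg hp)
        have h2 : ∃ a ∈ T k (⊤ : Subgroup X), x' ^ 2 ^ (k - 1) * a * (x' ^ 2 ^ (k - 1))⁻¹ * a⁻¹ ∉ κ := by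
          by_contra hcon
          push Not at hcon
          exact not_pos_of_neg hab hi h1 hcon
        have h3 := ((hstar x' hn κ hκm).2 h2).2
        obtain ⟨c', hc', hcx'⟩ := hmod (2 ^ (k - 2))
        rw [hw'] at hcx'
        have h4 : x ^ 2 ^ (k - 2) = (w' : X)⁻¹ * (c'⁻¹ * x' ^ 2 ^ (k - 2)) := by
          rw [hcx']; group
        rw [h4]
        have h5 : (w' : X) ∈ Subgroup.normalizer (κ : Set X) := by
          rcases hEA w'.2 κ hκm with h6 | h6
          · exact Pos.mem_normalizer hL hab hκL h6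
          · exact Neg.mem_normalizer hL hab hκL h6
        exact mul_mem (inv_mem h5) (mul_mem (inv_mem (Pos.mem_normalizer hL hab hκL (hCpos κ c' hc'))) h3)
      · have h2 : ∃ a ∈ T k (⊤ : Subgroup X), x ^ 2 ^ (k - 1) * a * (x ^ 2 ^ (k - 1))⁻¹ * a⁻¹ ∉ κ := by
          by_contra hcon
          push Not at hcon
          exact not_pos_of_neg hab hi hp hcon
        exact ((hstar x hx κ hκm).2 h2).2
    apply hnp
    rw [hww]
    rcases hEA w'.2 κ hκm with h6 | h6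
    · exact Pos.mul hL hab hκL h6 (Pos.conj hL hab hκL h6 hunorm)
    · exact Neg.mul hL hab hκL h6 (Neg.conj hL hab hκL h6 hunorm)

end Cfsg.Agent.H979.TwoLenF
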