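import Mathlib
import Cfsg.Agent.H552.Series
import Cfsg.Agent.H979.TwoLenF

/-!
# Part STAR of helper552's plan for S4258
-/

set_option autoImplicit false
set_option linter.unusedSectionVars false

namespace Cfsg.Agent.H979.TwoLenStar

open Cfsg.Agent.H552 Cfsg.Agent.H979.TwoLenF

theorem mem_of_odd_pow {G : Type*} [Group G] {S : Subgroup G} {y : G} (hy : IsTwo y) {o : ℕ} (ho : Odd o)
    (h : y ^ o ∈ S) : y ∈ S := by
  obtain ⟨j, hj⟩ := isTwo_iff_orderOf.1 hy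
  have hc : o.Coprime (orderOf y) := by
    rw [hj]
    exact (Nat.Coprime.pow_left _ (Nat.coprime_two_left.2 ho)).symm
  obtain ⟨n, hn⟩ := exists_pow_eq_self_of_coprime hc
  rw [← hn]
  exact pow_mem h n

section

variable {X : Type*} [Group X] [Finite X] {M : Type*} [AddCommGroup M] [Module (ZMod 2) M]
  (τ : X →* Module.End (ZMod 2) M) {L κ : Subgroup X} {P : Submodule (ZMod 2) M}

/-- the elements of `L` fixing `v` modulo `P` -/
def fixer (P : Submodule (ZMod 2) M) (hP : ∀ l ∈ L, ∀ m ∈ P, τ l m ∈ P) (v : M) : Subgroup X where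
  carrier := {l | l ∈ L ∧ τ l v - v ∈ P}
  one_mem' := ⟨one_mem _, by simp⟩
  mul_mem' := by
    rintro a b ⟨ha, ha'⟩ ⟨hb, hb'⟩
    refine ⟨mul_mem ha hb, ?_⟩
    have e : τ (a * b) v - v = τ a (τ b v - v) + (τ a v - v) := by
      rw [map_mul, Module.End.mul_apply, map_sub]; abel
    rw [e]
    exact add_mem (hP a ha _ hb') ha'
  inv_mem' := by
    rintro a ⟨ha, ha'⟩
    refine ⟨inv_mem ha, ?_⟩
    have h1 : τ a⁻¹ (τ a v) = v := by
      rw [← Module.End.mul_apply, ← map_mul, inv_mul_cancel, map_one, Module.End.one_apply]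
    have e : τ a⁻¹ v - v = -(τ a⁻¹ (τ a v - v)) := by
      rw [map_sub, h1]; abel
    rw [e]
    exact neg_mem (hP _ (inv_mem ha) _ ha')

/-- a vector fixed modulo `P` by an element of `L` outside `κ` is in `P` -/
theorem mem_of_fixed (hκ : κ ≤ L) (hκ5 : κ.relIndex L = 5) (hP : ∀ l ∈ L, ∀ m ∈ P, τ l m ∈ P)
    (hκP : ∀ l ∈ κ, ∀ m, τ l m - m ∈ P) (hfix : ∀ m, (∀ l ∈ L, τ l m - m ∈ P) → m ∈ P) {v : M} {l : X}
    (hl : l ∈ L) (hlκ : l ∉ κ) (h : τ l v - v ∈ P) : v ∈ P := by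
  have hκS : κ ≤ fixer τ P hP v := fun c hc => ⟨hκ hc, hκP c hc v⟩
  have hSL : fixer τ P hP v ≤ L := fun c hc => hc.1
  have hmul := Subgroup.relIndex_mul_relIndex κ (fixer τ P hP v) L hκS hSL
  have hi : (κ.relIndex L).Prime := by rw [hκ5]; norm_num
  rw [← hmul] at hi
  rcases Nat.prime_mul_iff.1 hi with ⟨-, h1⟩ | ⟨-, h1⟩
  · exact hfix v fun c hc => ((Subgroup.relIndex_eq_one.1 h1) hc).2
  · exact absurd ((Subgroup.relIndex_eq_one.1 h1) ⟨hl, h⟩) hlκ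

/-- translates of `κ`-fixed vectors by elements not normalizing `κ` are in `P` -/
theorem translate_mem (hLn : L.Normal) (hκ : κ ≤ L) (hκ5 : κ.relIndex L = 5)
    (hP : ∀ l ∈ L, ∀ m ∈ P, τ l m ∈ P) (hκP : ∀ l ∈ κ, ∀ m, τ l m - m ∈ P)
    (hfix : ∀ m, (∀ l ∈ L, τ l m - m ∈ P) → m ∈ P) {m : M} (hm : ∀ c ∈ κ, τ c m = m) {g : X}
    (hg : g ∉ Subgroup.normalizer (κ : Set X)) : τ g m ∈ P := by
  have h1 : ∃ c ∈ κ, g * c * g⁻¹ ∉ κ := by
    by_contra hcon
    push Not at hcon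
    apply hg
    have : Finite (κ : Set X) := inferInstance
    exact Subgroup.mem_normalizer_fintype hcon
  obtain ⟨c, hc, hgc⟩ := h1
  refine mem_of_fixed τ hκ hκ5 hP hκP hfix (hLn.conj_mem c (hκ hc) g) hgc ?_
  have h2 : τ (g * c * g⁻¹) (τ g m) = τ g m := by
    rw [← Module.End.mul_apply, ← map_mul, inv_mul_cancel_right, map_mul, Module.End.mul_apply, hm c hc]
  rw [h2, sub_self]
  exact zero_mem _

end

/-- **Part STAR of the plan for S4258.** -/
theorem star {X : Type*} [Group X] [Finite X] {M : Type*} [AddCommGroup M] [Module (ZMod 2) M] [Finite M]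
    (τ : X →* Module.End (ZMod 2) M) (L : Subgroup X) (hLn : L.Normal)
    (hLab : ∀ a ∈ L, ∀ b ∈ L, a * b = b * a) (hLodd : Odd (Nat.card L)) (κ : Subgroup X) (hκ : κ ≤ L)
    (hκ5 : κ.relIndex L = 5) (P : Submodule (ZMod 2) M) (hP : ∀ l ∈ L, ∀ m ∈ P, τ l m ∈ P)
    (hκP : ∀ l ∈ κ, ∀ m, τ l m - m ∈ P) (hfix : ∀ m, (∀ l ∈ L, τ l m - m ∈ P) → m ∈ P)
    (hcard : Nat.card (M ⧸ P) = 16) {k : ℕ} (hk : 1 ≤ k) {x : X} (hxk : x ^ 2 ^ k = 1)
    (hN : ∀ m m', (∑ i ∈ Finset.range (2 ^ k), τ (x ^ i) m) ∈ P ∨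
      (∑ i ∈ Finset.range (2 ^ k), τ (x ^ i) m') ∈ P ∨
      (∑ i ∈ Finset.range (2 ^ k), τ (x ^ i) (m - m')) ∈ P) :
    x ^ 2 ^ (k - 1) ∈ Subgroup.normalizer (κ : Set X) ∧
      ((∃ a ∈ L, x ^ 2 ^ (k - 1) * a * (x ^ 2 ^ (k - 1))⁻¹ * a⁻¹ ∉ κ) →
        2 ≤ k ∧ x ^ 2 ^ (k - 2) ∈ Subgroup.normalizer (κ : Set X)) := by
  classical
  have hx : IsTwo x := ⟨k, hxk⟩
  have hκodd : Odd (Nat.card κ) := Odd.of_dvd_nat hLodd (Subgroup.card_dvd_of_le hκ)
  have hchar : ∀ w : M, w + w = 0 := by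
    intro w
    rw [← two_smul (ZMod 2)]
    have : (2 : ZMod 2) = 0 := by decide
    rw [this, zero_smul]
  have hneg : ∀ w : M, -w = w := fun w => neg_eq_of_add_eq_zero_left (hchar w)
  -- representatives fixed by `κ`
  have hrep : ∀ c : M ⧸ P, ∃ m : M, (∀ l ∈ κ, τ l m = m) ∧ P.mkQ m = c := by
    intro c
    obtain ⟨m, rfl⟩ := Submodule.mkQ_surjective P c
    have : Fintype κ := Fintype.ofFinite κ
    refine ⟨∑ l : κ, τ l m, ?_, ?_⟩
    · intro l hl
      rw [map_sum]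
      refine Fintype.sum_equiv (Equiv.mulLeft (⟨l, hl⟩ : κ)) _ _ ?_
      intro c
      rw [← Module.End.mul_apply, ← map_mul]
      rfl
    · rw [map_sum]
      have h1 : ∀ l : κ, P.mkQ (τ l m) = P.mkQ m := by
        intro l
        rw [← sub_eq_zero, ← map_sub]
        exact (Submodule.Quotient.mk_eq_zero P).2 (hκP l l.2 m)
      rw [Finset.sum_congr rfl fun l _ => h1 l, Finset.sum_const, Finset.card_univ, ← Nat.card_eq_fintype_card]
      obtain ⟨j, hj⟩ := hκodd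
      rw [hj, add_smul, one_smul, mul_comm, mul_smul]
      have h2 : (2 : ℕ) • P.mkQ m = 0 := by
        rw [two_smul, ← map_add, hchar, map_zero]
      rw [h2, smul_zero, zero_add]
  choose s hs hsc using hrep
  -- pigeonhole
  have hpig : ∀ l ∈ L, ∃ m : M, (∀ c ∈ κ, τ c m = m) ∧ m ∉ P ∧
      (∑ i ∈ Finset.range (2 ^ k), τ (x ^ i) m) ∈ P ∧ (∑ i ∈ Finset.range (2 ^ k), τ (x ^ i) (τ l m)) ∈ P := by
    intro l _
    have hfinQ : Finite (M ⧸ P) := Nat.finite_of_card_ne_zero (by rw [hcard]; norm_num)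
    have : Fintype (M ⧸ P) := Fintype.ofFinite _
    let f : M ⧸ P → Bool × Bool := fun c =>
      (decide ((∑ i ∈ Finset.range (2 ^ k), τ (x ^ i) (s c)) ∈ P),
        decide ((∑ i ∈ Finset.range (2 ^ k), τ (x ^ i) (τ l (s c))) ∈ P))
    obtain ⟨c, c', hne, hf⟩ := Fintype.exists_ne_map_eq_of_card_lt f (by
      rw [← Nat.card_eq_fintype_card (α := M ⧸ P), hcard, Fintype.card_prod, Fintype.card_bool]; norm_num)
    have hf1 : (∑ i ∈ Finset.range (2 ^ k), τ (x ^ i) (s c)) ∈ P ↔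
        (∑ i ∈ Finset.range (2 ^ k), τ (x ^ i) (s c')) ∈ P := by
      have := congrArg Prod.fst hf
      simpa [f] using this
    have hf2 : (∑ i ∈ Finset.range (2 ^ k), τ (x ^ i) (τ l (s c))) ∈ P ↔
        (∑ i ∈ Finset.range (2 ^ k), τ (x ^ i) (τ l (s c'))) ∈ P := by
      have := congrArg Prod.snd hf
      simpa [f] using this
    have hsub : ∀ a b : M, ((∑ i ∈ Finset.range (2 ^ k), τ (x ^ i) a) ∈ P ↔
        (∑ i ∈ Finset.range (2 ^ k), τ (x ^ i) b) ∈ P) →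
        (∑ i ∈ Finset.range (2 ^ k), τ (x ^ i) (a - b)) ∈ P := by
      intro a b hab
      rcases hN a b with h1 | h1 | h1
      · have h2 := sub_mem h1 (hab.1 h1)
        rw [← Finset.sum_sub_distrib] at h2
        simpa only [map_sub] using h2
      · have h2 := sub_mem (hab.2 h1) h1
        rw [← Finset.sum_sub_distrib] at h2
        simpa only [map_sub] using h2
      · exact h1
    refine ⟨s c - s c', ?_, ?_, hsub _ _ hf1, ?_⟩
    · intro d hd
      rw [map_sub, hs c d hd, hs c' d hd]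
    · intro h1
      apply hne
      rw [← hsc c, ← hsc c', ← sub_eq_zero, ← map_sub]
      exact (Submodule.Quotient.mk_eq_zero P).2 h1
    · have h1 := hsub _ _ hf2
      rwa [← map_sub] at h1
  -- positions
  have hpos : ∀ i, i ≠ 0 → i < 2 ^ k → x ^ i ∈ Subgroup.normalizer (κ : Set X) →
      x ^ 2 ^ (k - 1) ∈ Subgroup.normalizer (κ : Set X) ∧
      (i ≠ 2 ^ (k - 1) → 2 ≤ k ∧ x ^ 2 ^ (k - 2) ∈ Subgroup.normalizer (κ : Set X)) := by
    intro i hi0 hik hi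
    obtain ⟨j, o, ho, hjo⟩ := Nat.exists_eq_two_pow_mul_odd hi0
    rw [hjo, pow_mul] at hi
    have h1 := mem_of_odd_pow (hx.pow _) ho hi
    have h2 : 2 ^ j < 2 ^ k := lt_of_le_of_lt (by rw [hjo]; exact Nat.le_mul_of_pos_right _ ho.pos) hik
    have h3 : j < k := (Nat.pow_lt_pow_iff_right (by norm_num)).1 h2
    constructor
    · obtain ⟨l, hl⟩ : ∃ l, k - 1 = j + l := ⟨k - 1 - j, by omega⟩
      rw [hl, pow_add, pow_mul]
      exact pow_mem h1 _
    · intro hne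
      have h4 : j ≠ k - 1 := by
        rintro rfl
        apply hne
        have h5 : 2 ^ k = 2 ^ (k - 1) * 2 := by rw [← pow_succ, Nat.sub_add_cancel hk]
        rw [hjo, h5] at hik
        have h6 : o < 2 := lt_of_mul_lt_mul_left hik (Nat.zero_le _)
        have h7 : o = 1 := by
          have := ho.pos
          omega
        rw [hjo, h7, mul_one]
      have h5 : 2 ≤ k := by omega
      refine ⟨h5, ?_⟩
      obtain ⟨l, hl⟩ : ∃ l, k - 2 = j + l := ⟨k - 2 - j, by omega⟩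
      rw [hl, pow_add, pow_mul]
      exact pow_mem h1 _
  have h0mem : 0 ∈ Finset.range (2 ^ k) := Finset.mem_range.2 (by positivity)
  have ht : x ^ 2 ^ (k - 1) ∈ Subgroup.normalizer (κ : Set X) := by
    by_contra htn
    obtain ⟨m, hm, hmP, hNm, -⟩ := hpig 1 (one_mem _)
    apply hmP
    rw [← Finset.add_sum_erase _ _ h0mem] at hNm
    have h1 : (∑ i ∈ (Finset.range (2 ^ k)).erase 0, τ (x ^ i) m) ∈ P := by
      refine Submodule.sum_mem _ fun i hi => ?_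
      rw [Finset.mem_erase, Finset.mem_range] at hi
      exact translate_mem τ hLn hκ hκ5 hP hκP hfix hm fun h2 => htn (hpos i hi.1 hi.2 h2).1
    have h2 := sub_mem hNm h1
    simpa using h2
  refine ⟨ht, ?_⟩
  rintro ⟨a, ha, hat⟩
  by_contra hcon
  set t := x ^ 2 ^ (k - 1) with htdef
  have htt : t * t = 1 := by
    rw [htdef, ← pow_add, ← two_mul, ← pow_succ', Nat.sub_add_cancel hk]
    exact hxk
  have haκ : a ∉ κ := by
    intro h1
    exact hat (mul_mem ((Subgroup.mem_normalizer_iff.1 ht a).1 h1) (inv_mem h1))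
  have hnegt : Neg L κ t := by
    have hi : (κ.relIndex L).Prime := by rw [hκ5]; norm_num
    rcases pos_or_neg hLn hLab hi ht htt hκ with h1 | h1
    · exact absurd (h1 a ha) hat
    · exact h1
  -- the norm of a `κ`-fixed vector
  have hnorm : ∀ m : M, (∀ c ∈ κ, τ c m = m) → (∑ i ∈ Finset.range (2 ^ k), τ (x ^ i) m) ∈ P → m + τ t m ∈ P := by
    intro m hm hNm
    have hlt : 2 ^ (k - 1) < 2 ^ k := Nat.pow_lt_pow_right (by norm_num) (by omega)
    have h1mem : 2 ^ (k - 1) ∈ (Finset.range (2 ^ k)).erase 0 :=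
      Finset.mem_erase.2 ⟨by positivity, Finset.mem_range.2 hlt⟩
    rw [← Finset.add_sum_erase _ _ h0mem, ← Finset.add_sum_erase _ _ h1mem] at hNm
    have h1 : (∑ i ∈ ((Finset.range (2 ^ k)).erase 0).erase (2 ^ (k - 1)), τ (x ^ i) m) ∈ P := by
      refine Submodule.sum_mem _ fun i hi => ?_
      rw [Finset.mem_erase, Finset.mem_erase, Finset.mem_range] at hi
      exact translate_mem τ hLn hκ hκ5 hP hκP hfix hm fun h2 => hcon ((hpos i hi.2.1 hi.2.2 h2).2 hi.1)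
    have h2 := sub_mem hNm h1
    rw [pow_zero, map_one, Module.End.one_apply] at h2
    have e : m + (τ (x ^ 2 ^ (k - 1)) m + ∑ i ∈ ((Finset.range (2 ^ k)).erase 0).erase (2 ^ (k - 1)), τ (x ^ i) m) -
        ∑ i ∈ ((Finset.range (2 ^ k)).erase 0).erase (2 ^ (k - 1)), τ (x ^ i) m = m + τ t m := by
      rw [htdef]; abel
    rwa [e] at h2
  obtain ⟨m, hm, hmP, hN1, hN2⟩ := hpig a ha
  have hm1 := hnorm m hm hN1
  have hm2 := hnorm (τ a m) (fun c hc => by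
    rw [← Module.End.mul_apply, ← map_mul, hLab c (hκ hc) a ha, map_mul, Module.End.mul_apply, hm c hc]) hN2
  -- apply `a⁻¹`
  have hm3 := hP a⁻¹ (inv_mem ha) _ hm2
  rw [map_add] at hm3
  have e1 : τ a⁻¹ (τ a m) = m := by
    rw [← Module.End.mul_apply, ← map_mul, inv_mul_cancel, map_one, Module.End.one_apply]
  have hc : t * a * t⁻¹ * a ∈ κ := hnegt a ha
  have hc' : t * a * t⁻¹ ∈ L := hLn.conj_mem a ha t
  have e2 : τ a⁻¹ (τ t (τ a m)) = τ (t * a * t⁻¹ * a) (τ (a⁻¹ * a⁻¹) (τ t m)) := by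
    have h0 : a⁻¹ * (t * a) = t * a * t⁻¹ * a * (a⁻¹ * a⁻¹ * t) := by
      have h1 : t * a * t⁻¹ * a * (a⁻¹ * a⁻¹ * t) = (t * a * t⁻¹) * a⁻¹ * t := by group
      have h2 : a⁻¹ * (t * a) = a⁻¹ * (t * a * t⁻¹) * t := by group
      rw [h1, hLab _ hc' _ (inv_mem ha), h2]
    have h3 : τ a⁻¹ (τ t (τ a m)) = τ (a⁻¹ * (t * a)) m := by
      rw [map_mul, map_mul, Module.End.mul_apply, Module.End.mul_apply]
    have h4 : τ (t * a * t⁻¹ * a) (τ (a⁻¹ * a⁻¹) (τ t m)) = τ (t * a * t⁻¹ * a * (a⁻¹ * a⁻¹ * t)) m := by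
      rw [map_mul τ (t * a * t⁻¹ * a), map_mul τ (a⁻¹ * a⁻¹), Module.End.mul_apply, Module.End.mul_apply]
    rw [h3, h4, h0]
  rw [e1, e2] at hm3
  have hm4 := sub_mem hm3 (hκP _ hc (τ (a⁻¹ * a⁻¹) (τ t m)))
  have e3 : m + τ (t * a * t⁻¹ * a) (τ (a⁻¹ * a⁻¹) (τ t m)) -
      (τ (t * a * t⁻¹ * a) (τ (a⁻¹ * a⁻¹) (τ t m)) - τ (a⁻¹ * a⁻¹) (τ t m)) = m + τ (a⁻¹ * a⁻¹) (τ t m) := by
    abel
  rw [e3] at hm4
  have hm5 : τ (a⁻¹ * a⁻¹) (τ t m) - τ t m ∈ P := by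
    have := sub_mem hm4 hm1
    have e4 : m + τ (a⁻¹ * a⁻¹) (τ t m) - (m + τ t m) = τ (a⁻¹ * a⁻¹) (τ t m) - τ t m := by abel
    rwa [e4] at this
  have haa : a⁻¹ * a⁻¹ ∉ κ := by
    intro h1
    apply haκ
    have h2 : a * a ∈ κ := by
      have := inv_mem h1
      rwa [mul_inv_rev, inv_inv] at this
    have hn : (κ.subgroupOf L).Normal := by
      refine ⟨fun n hn g => ?_⟩
      have : g * n * g⁻¹ = n := by
        apply Subtype.ext
        push_cast
        rw [hLab g g.2 n n.2, mul_assoc, mul_inv_cancel, mul_one]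
      rwa [this]
    have h3 := Subgroup.pow_index_mem (κ.subgroupOf L) ⟨a, ha⟩
    have hi' : (κ.subgroupOf L).index = 5 := hκ5
    rw [hi', Subgroup.mem_subgroupOf] at h3
    have h4 : a ^ 5 ∈ κ := h3
    have h5 := mul_mem h4 (inv_mem (mul_mem h2 h2))
    have e6 : a ^ 5 * (a * a * (a * a))⁻¹ = a := by group
    rwa [e6] at h5
  have hw := mem_of_fixed τ hκ hκ5 hP hκP hfix (mul_mem (inv_mem ha) (inv_mem ha)) haa hm5
  apply hmP
  have := sub_mem hm1 hw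
  simpa using this

end Cfsg.Agent.H979.TwoLenStar
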